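import Cfsg.Agent.H607.TW.Defs2
import Cfsg.Agent.H748.TW.SubBase
import Cfsg.Agent.H296.TW.Cyc
import Cfsg.Agent.H924.Idem
import Cfsg.Agent.Lib.AutSL2Out

/-!
# S3694: calculus of lifts and invariant subalgebras (helper607)

* `Ind.comp`, `Ind.symm'`, `ind_self'`, `Ind.smul'`;
* `inv_adjoin`, `inv_centralizer`;
* `comm_lift` : the commutator of two elements of `G` has a lift `tauP B 1`;
* `frame_of_idem` : the frame of an invariant commutative subalgebra with nontrivial idempotents.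
-/

set_option autoImplicit false

namespace Cfsg.Agent.H607.TW

open Subgroup Cfsg

universe u

variable {G : Type u} [Group G] {N A X : Subgroup G} {r : ℕ} {F : Type} [Field F] {n : ℕ} {S : Type} [Group S]
  {ι : S →* Matrix.GeneralLinearGroup (Fin n) F} {π : S →* G}

open Cfsg.Agent.H296.TW (mt_mul mt_one mt_mul_inv mt_inv_mul not_comm)

theorem Model.mt_inj (hM : Model N ι π) {s t : S} (h : mt ι s = mt ι t) : s = t := H296.TW.mt_inj hM.inj h

theorem Model.finite_S [Finite F] (hM : Model N ι π) : Finite S := Finite.of_injective ι hM.inj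

theorem Model.pos (hM : Model N ι π) : 0 < n := lt_of_lt_of_le two_pos hM.two

theorem Model.mem (hM : Model N ι π) (s : S) : π s ∈ N := by
  rw [← hM.range]
  exact ⟨s, rfl⟩

theorem Model.exists_pre (hM : Model N ι π) {x : G} (hx : x ∈ N) : ∃ s, π s = x := by
  rw [← hM.range] at hx
  exact hx

/-- `π s = π t` iff `mt s` is a scalar multiple of `mt t`. -/
theorem Model.smul_of_eq (hM : Model N ι π) {s t : S} (h : π s = π t) : ∃ c : F, mt ι s = c • mt ι t := by
  have h1 : π (s * t⁻¹) = 1 := by rw [map_mul, map_inv, h, mul_inv_cancel]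
  obtain ⟨c, hc⟩ := (hM.ker _).1 h1
  refine ⟨c, ?_⟩
  have h2 : s = (s * t⁻¹) * t := by group
  rw [h2, mt_mul, hc, smul_mul_assoc, one_mul]

/-! ### Composition and inverse of lifts -/

theorem Ind.comp {g k : G} {τ ρ : Matrix (Fin n) (Fin n) F ≃+ Matrix (Fin n) (Fin n) F}
    (h1 : Ind ι π g τ) (h2 : Ind ι π k ρ) : Ind ι π (g * k) (ρ.trans τ) := by
  rcases h1 with ⟨m1, h1⟩ | ⟨m1, h1⟩ <;> rcases h2 with ⟨m2, h2⟩ | ⟨m2, h2⟩
  · refine Or.inl ⟨fun x y => by simp only [AddEquiv.trans_apply, m2, m1], fun s => ?_⟩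
    obtain ⟨s1, e1, f1⟩ := h2 s
    obtain ⟨s2, e2, f2⟩ := h1 s1
    refine ⟨s2, by rw [e2, e1]; rfl, ?_⟩
    rw [f2, f1]; group
  · refine Or.inr ⟨fun x y => by simp only [AddEquiv.trans_apply, m2, m1], fun s => ?_⟩
    obtain ⟨s1, e1, f1⟩ := h2 s
    obtain ⟨s2, e2, f2⟩ := h1 s1
    refine ⟨s2, by rw [e2, e1]; rfl, ?_⟩
    rw [f2]
    calc (g * π s1 * g⁻¹)⁻¹ = g * (π s1)⁻¹ * g⁻¹ := by group
      _ = g * k * π s * (g * k)⁻¹ := by rw [f1]; group
  · refine Or.inr ⟨fun x y => by simp only [AddEquiv.trans_apply, m2, m1], fun s => ?_⟩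
    obtain ⟨s1, e1, f1⟩ := h2 s
    obtain ⟨s2, e2, f2⟩ := h1 s1
    refine ⟨s2, by rw [e2, e1]; rfl, ?_⟩
    rw [f2, f1]; group
  · refine Or.inl ⟨fun x y => by simp only [AddEquiv.trans_apply, m2, m1], fun s => ?_⟩
    obtain ⟨s1, e1, f1⟩ := h2 s
    obtain ⟨s2, e2, f2⟩ := h1 s1
    refine ⟨s2, by rw [e2, e1]; rfl, ?_⟩
    have h3 : π s2 = (g * π s1 * g⁻¹)⁻¹ := by rw [← f2, inv_inv]
    rw [h3]
    calc (g * π s1 * g⁻¹)⁻¹ = g * (π s1)⁻¹ * g⁻¹ := by group
      _ = g * k * π s * (g * k)⁻¹ := by rw [f1]; group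

/-- the map `s ↦ s'` is surjective -/
theorem Ind.surj [Finite F] (hM : Model N ι π) {τ : Matrix (Fin n) (Fin n) F ≃+ Matrix (Fin n) (Fin n) F} {P : S → S → Prop}
    (h : ∀ s : S, ∃ s' : S, mt ι s' = τ (mt ι s) ∧ P s s') (s' : S) : ∃ s : S, mt ι s' = τ (mt ι s) ∧ P s s' := by
  have := hM.finite_S
  choose f hf using h
  have hinj : Function.Injective f := by
    intro s t hst
    apply hM.mt_inj
    apply τ.injective
    rw [← (hf s).1, ← (hf t).1, hst]
  obtain ⟨s, rfl⟩ := Finite.surjective_of_injective hinj s'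
  exact ⟨s, hf s⟩

theorem Ind.symm' [Finite F] (hM : Model N ι π) {g : G} {τ : Matrix (Fin n) (Fin n) F ≃+ Matrix (Fin n) (Fin n) F}
    (h : Ind ι π g τ) : Ind ι π g⁻¹ τ.symm := by
  rcases h with ⟨m, h⟩ | ⟨m, h⟩
  · refine Or.inl ⟨fun x y => ?_, fun s => ?_⟩
    · apply τ.injective
      rw [m, AddEquiv.apply_symm_apply, AddEquiv.apply_symm_apply, AddEquiv.apply_symm_apply]
    · obtain ⟨t, ht, ht'⟩ := Ind.surj hM (P := fun s s' => π s' = g * π s * g⁻¹) h s
      refine ⟨t, by rw [ht, AddEquiv.symm_apply_apply], ?_⟩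
      rw [ht']; group
  · refine Or.inr ⟨fun x y => ?_, fun s => ?_⟩
    · apply τ.injective
      rw [m, AddEquiv.apply_symm_apply, AddEquiv.apply_symm_apply, AddEquiv.apply_symm_apply]
    · obtain ⟨t, ht, ht'⟩ := Ind.surj hM (P := fun s s' => (π s')⁻¹ = g * π s * g⁻¹) h s
      refine ⟨t, by rw [ht, AddEquiv.symm_apply_apply], ?_⟩
      have h3 : π s = (g * π t * g⁻¹)⁻¹ := by rw [← ht', inv_inv]
      rw [h3]; group

/-- a lift is semilinear -/
theorem Ind.smul' {g : G} {τ : Matrix (Fin n) (Fin n) F ≃+ Matrix (Fin n) (Fin n) F} (h : Ind ι π g τ) (c : F) :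
    ∃ c' : F, ∀ x, τ (c • x) = c' • τ x := by
  have h1 : ∀ y, τ (c • (1 : Matrix (Fin n) (Fin n) F)) * y = y * τ (c • (1 : Matrix (Fin n) (Fin n) F)) := by
    intro y
    obtain ⟨x, rfl⟩ := τ.surjective y
    rcases h with ⟨m, -⟩ | ⟨m, -⟩ <;>
      rw [← m, ← m, smul_mul_assoc, mul_smul_comm, one_mul, mul_one]
  have h2 : τ (c • (1 : Matrix (Fin n) (Fin n) F)) ∈ Set.range (Matrix.scalar (Fin n)) := by
    rw [Matrix.mem_range_scalar_iff_commute_single]
    intro i j _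
    exact (h1 _).symm
  obtain ⟨c', hc'⟩ := h2
  rw [Matrix.scalar_apply, ← Matrix.smul_one_eq_diagonal] at hc'
  refine ⟨c', fun x => ?_⟩
  have h3 : τ (c • x) = τ (c • (1 : Matrix (Fin n) (Fin n) F)) * τ x := by
    rcases h with ⟨m, -⟩ | ⟨m, -⟩
    · rw [← m, smul_mul_assoc, one_mul]
    · rw [← m, mul_smul_comm, mul_one]
  rw [h3, ← hc', smul_mul_assoc, one_mul]

theorem Ind.one' {g : G} {τ : Matrix (Fin n) (Fin n) F ≃+ Matrix (Fin n) (Fin n) F} (h : Ind ι π g τ) :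
    τ (1 : Matrix (Fin n) (Fin n) F) = 1 := by
  have h1 : ∀ y, τ (1 : Matrix (Fin n) (Fin n) F) * y = y := by
    intro y
    obtain ⟨x, rfl⟩ := τ.surjective y
    rcases h with ⟨m, -⟩ | ⟨m, -⟩
    · rw [← m, one_mul]
    · rw [← m, mul_one]
  simpa using h1 1

/-- conjugation by the matrix of `s` -/
theorem ind_self' (hM : Model N ι π) (s : S) : Ind ι π (π s) (tauP (ι s) 1) := H296.TW.ind_self hM.two ι π s

theorem tauP_self (s : S) (x : Matrix (Fin n) (Fin n) F) : tauP (ι s) 1 x = mt ι s * x * mt ι s⁻¹ := by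
  rw [H296.TW.tauP_one_eq]
  congr 1
  unfold mt
  rw [map_inv]

/-! ### Invariant subalgebras -/

theorem Inv.adjoin (hX : A ≤ normalizer (X : Set G)) :
    Inv ι π A (Algebra.adjoin F (mt ι '' {s | π s ∈ X})) := by
  intro a ha τ hτ x hx
  induction hx using Algebra.adjoin_induction with
  | mem x hx =>
    obtain ⟨s, hs, rfl⟩ := hx
    rcases hτ with ⟨-, h⟩ | ⟨-, h⟩
    · obtain ⟨s', h1, h2⟩ := h s
      rw [← h1]
      apply Algebra.subset_adjoin
      refine ⟨s', ?_, rfl⟩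
      rw [Set.mem_ofPred_eq, h2]
      exact conj_mem_of_norm hX ha hs
    · obtain ⟨s', h1, h2⟩ := h s
      rw [← h1]
      apply Algebra.subset_adjoin
      refine ⟨s', ?_, rfl⟩
      rw [Set.mem_ofPred_eq, ← inv_mem_iff, h2]
      exact conj_mem_of_norm hX ha hs
  | algebraMap c =>
    obtain ⟨c', hc'⟩ := hτ.smul' c
    rw [Algebra.algebraMap_eq_smul_one, hc', hτ.one', ← Algebra.algebraMap_eq_smul_one]
    exact Subalgebra.algebraMap_mem _ _
  | add x y _ _ hx hy => rw [map_add]; exact add_mem hx hy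
  | mul x y _ _ hx hy =>
    rcases hτ with ⟨m, -⟩ | ⟨m, -⟩
    · rw [m]; exact mul_mem hx hy
    · rw [m]; exact mul_mem hy hx

theorem Inv.surj [Finite F] {E : Subalgebra F (Matrix (Fin n) (Fin n) F)} (hE : Inv ι π A E) {a : G} (ha : a ∈ A)
    {τ : Matrix (Fin n) (Fin n) F ≃+ Matrix (Fin n) (Fin n) F} (hτ : Ind ι π a τ) {y : Matrix (Fin n) (Fin n) F} (hy : y ∈ E) :
    ∃ x ∈ E, τ x = y := by
  let f : ↥E → ↥E := fun x => ⟨τ x, hE a ha τ hτ x x.2⟩
  have hinj : Function.Injective f := by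
    intro x x' h
    apply Subtype.ext
    exact τ.injective (congrArg Subtype.val h)
  obtain ⟨x, hx⟩ := Finite.surjective_of_injective hinj ⟨y, hy⟩
  exact ⟨x, x.2, congrArg Subtype.val hx⟩

theorem Inv.centralizer [Finite F] {E : Subalgebra F (Matrix (Fin n) (Fin n) F)} (hE : Inv ι π A E) :
    Inv ι π A (Subalgebra.centralizer F (E : Set (Matrix (Fin n) (Fin n) F))) := by
  intro a ha τ hτ y hy
  rw [Subalgebra.mem_centralizer_iff] at hy ⊢
  intro x hx
  obtain ⟨x', hx', rfl⟩ := hE.surj ha hτ hx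
  have h1 := hy x' hx'
  rcases hτ with ⟨m, -⟩ | ⟨m, -⟩
  · rw [← m, ← m, h1]
  · rw [← m, ← m, h1]

theorem Inv.inf {E E' : Subalgebra F (Matrix (Fin n) (Fin n) F)} (hE : Inv ι π A E) (hE' : Inv ι π A E') :
    Inv ι π A (E ⊓ E') := fun a ha τ hτ x hx => ⟨hE a ha τ hτ x hx.1, hE' a ha τ hτ x hx.2⟩

/-- a matrix commuting with `S` is scalar -/
theorem Model.scalar_of_comm (hM : Model N ι π) {x : Matrix (Fin n) (Fin n) F} (h : ∀ s, x * mt ι s = mt ι s * x) :
    ∃ c : F, x = c • (1 : Matrix (Fin n) (Fin n) F) := H296.TW.scalar_of_comm hM.span h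

/-! ### Lifts of conjugates and commutators -/

theorem ring_comm [Finite F] (σ ρ : F ≃+* F) : σ * ρ = ρ * σ := Lib.AutSL2Out.ringEquiv_comm σ ρ

/-- multiplicative (`b = true`) or antimultiplicative -/
def Par (b : Bool) (τ : Matrix (Fin n) (Fin n) F ≃+ Matrix (Fin n) (Fin n) F) : Prop :=
  ∀ x y, τ (x * y) = if b then τ x * τ y else τ y * τ x

def Semi (σ : F ≃+* F) (τ : Matrix (Fin n) (Fin n) F ≃+ Matrix (Fin n) (Fin n) F) : Prop :=
  ∀ (c : F) (x : Matrix (Fin n) (Fin n) F), τ (c • x) = σ c • τ x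

theorem Par.comp {b b' : Bool} {τ ρ : Matrix (Fin n) (Fin n) F ≃+ Matrix (Fin n) (Fin n) F} (h1 : Par b τ) (h2 : Par b' ρ) :
    Par (b == b') (ρ.trans τ) := by
  intro x y
  simp only [AddEquiv.trans_apply]
  cases b <;> cases b' <;> simp [h1 _ _, h2 _ _]

theorem Par.symm' {b : Bool} {τ : Matrix (Fin n) (Fin n) F ≃+ Matrix (Fin n) (Fin n) F} (h1 : Par b τ) :
    Par b τ.symm := by
  intro x y
  apply τ.injective
  cases b <;> simp [h1 _ _]

theorem Semi.comp {σ σ' : F ≃+* F} {τ ρ : Matrix (Fin n) (Fin n) F ≃+ Matrix (Fin n) (Fin n) F} (h1 : Semi σ τ) (h2 : Semi σ' ρ) :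
    Semi (σ * σ') (ρ.trans τ) := by
  intro c x
  simp only [AddEquiv.trans_apply]
  rw [h2, h1]
  rfl

theorem Semi.symm' {σ : F ≃+* F} {τ : Matrix (Fin n) (Fin n) F ≃+ Matrix (Fin n) (Fin n) F} (h1 : Semi σ τ) :
    Semi σ⁻¹ τ.symm := by
  intro c x
  apply τ.injective
  rw [h1, AddEquiv.apply_symm_apply, AddEquiv.apply_symm_apply]
  congr 1
  exact (RingEquiv.apply_symm_apply σ c).symm

theorem tauP_par (B : Matrix.GeneralLinearGroup (Fin n) F) (σ : F ≃+* F) : Par true (tauP B σ) := by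
  intro x y
  simp [H296.TW.tauP_mul]

theorem tauM_par (B : Matrix.GeneralLinearGroup (Fin n) F) (σ : F ≃+* F) : Par false (tauM B σ) := by
  intro x y
  simp [H296.TW.tauM_mul]

theorem tauP_semi (B : Matrix.GeneralLinearGroup (Fin n) F) (σ : F ≃+* F) : Semi σ (tauP B σ) := by
  intro c x
  rw [tauP_apply, tauP_apply]
  have h : (c • x).map σ = σ c • x.map σ := by
    ext i j; simp
  rw [h, mul_smul_comm, smul_mul_assoc]

theorem tauM_semi (B : Matrix.GeneralLinearGroup (Fin n) F) (σ : F ≃+* F) : Semi σ (tauM B σ) := by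
  intro c x
  exact tauP_semi B σ c x.transpose

/-- Skolem-Noether -/
theorem eq_tauP_one {τ : Matrix (Fin n) (Fin n) F ≃+ Matrix (Fin n) (Fin n) F} (h1 : Par true τ) (h2 : Semi 1 τ) :
    ∃ B : Matrix.GeneralLinearGroup (Fin n) F, τ = tauP B 1 := by
  have hone : τ 1 = 1 := by
    have h3 : ∀ y, τ 1 * y = y := by
      intro y
      obtain ⟨x, rfl⟩ := τ.surjective y
      have := h1 1 x
      simpa using this.symm
    simpa using h3 1
  let f : Matrix (Fin n) (Fin n) F ≃ₐ[F] Matrix (Fin n) (Fin n) F := AlgEquiv.ofRingEquiv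
    (f := { τ with map_mul' := fun x y => by simpa using h1 x y })
    (fun c => by
      rw [Algebra.algebraMap_eq_smul_one]
      exact (h2 c 1).trans (by rw [hone]; rfl))
  have hf : ∀ x, f x = τ x := fun x => rfl
  let e : Matrix (Fin n) (Fin n) F ≃ₐ[F] Module.End F (Fin n → F) := Matrix.toLinAlgEquiv'
  obtain ⟨T, hT⟩ := AlgEquiv.eq_linearEquivConjAlgEquiv ((e.symm.trans f).trans e)
  let B : Matrix.GeneralLinearGroup (Fin n) F :=
    ⟨e.symm T.toLinearMap, e.symm T.symm.toLinearMap, by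
      rw [← map_mul]
      have : (T.toLinearMap * T.symm.toLinearMap : Module.End F (Fin n → F)) = 1 := by
        ext x; simp
      rw [this, map_one], by
      rw [← map_mul]
      have : (T.symm.toLinearMap * T.toLinearMap : Module.End F (Fin n → F)) = 1 := by
        ext x; simp
      rw [this, map_one]⟩
  refine ⟨B, ?_⟩
  ext1 x
  rw [H296.TW.tauP_one_eq]
  have h3 : e (τ x) = T.conjAlgEquiv F (e x) := by
    rw [← hT]
    simp only [AlgEquiv.trans_apply, AlgEquiv.symm_apply_apply]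
    rw [hf]
  apply e.injective
  rw [h3]
  have hB1 : e (B : Matrix (Fin n) (Fin n) F) = T.toLinearMap := e.apply_symm_apply _
  have hB2 : e ((B⁻¹ : Matrix.GeneralLinearGroup (Fin n) F) : Matrix (Fin n) (Fin n) F) = T.symm.toLinearMap :=
    e.apply_symm_apply _
  rw [map_mul, map_mul, hB1, hB2]
  ext v
  simp [LinearEquiv.conjAlgEquiv_apply]

theorem Model.exists_lift' (hM : Model N ι π) (g : G) :
    ∃ (b : Bool) (σ : F ≃+* F) (τ : Matrix (Fin n) (Fin n) F ≃+ Matrix (Fin n) (Fin n) F), Par b τ ∧ Semi σ τ ∧ Ind ι π g τ := by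
  obtain ⟨B, σ, h | h⟩ := hM.lift g
  · exact ⟨true, σ, _, tauP_par B σ, tauP_semi B σ, h⟩
  · exact ⟨false, σ, _, tauM_par B σ, tauM_semi B σ, h⟩

/-- the commutator of two elements has a lift of the form `x ↦ B x B⁻¹` -/
theorem Model.comm_lift [Finite F] (hM : Model N ι π) (x a : G) : ∃ B, Ind ι π (a * x * a⁻¹ * x⁻¹) (tauP B 1) := by
  obtain ⟨b, σ, τ, p1, s1, i1⟩ := hM.exists_lift' x
  obtain ⟨b', ρ, τ', p2, s2, i2⟩ := hM.exists_lift' a
  have i3 := ((i2.comp i1).comp (i2.symm' hM)).comp (i1.symm' hM)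
  have p3 := ((p2.comp p1).comp p2.symm').comp p1.symm'
  have s3 := ((s2.comp s1).comp s2.symm').comp s1.symm'
  have hb : ((((b' == b) == b') == b) : Bool) = true := by cases b <;> cases b' <;> rfl
  rw [hb] at p3
  have hs : ρ * σ * ρ⁻¹ * σ⁻¹ = 1 := by
    rw [ring_comm ρ σ]
    group
  rw [hs] at s3
  obtain ⟨B, hB⟩ := eq_tauP_one p3 s3
  rw [hB] at i3
  exact ⟨B, i3⟩

end Cfsg.Agent.H607.TW
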