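import Cfsg.Agent.H607.TW.Defs
import Cfsg.Agent.Lib.LocalCore
import Cfsg.Agent.Lib.GenFitting
import Cfsg.Agent.Lib.NormalAbelian
import Cfsg.Agent.SignalizersComponents.Components

/-!
# S3694: abstract lemmas about `Loc` and `Sit` (helper607)
-/

set_option autoImplicit false

namespace Cfsg.Agent.H607.TW

open Subgroup Cfsg Cfsg.Agent.Lib

universe u

variable {G : Type u} [Group G] {N A C A₁ C₁ A₂ C₂ : Subgroup G} {r d : ℕ}

theorem le_normalizer_of_conj {A X : Subgroup G} (h : ∀ g ∈ A, ∀ x ∈ X, g * x * g⁻¹ ∈ X) :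
    A ≤ normalizer (X : Set G) := by
  intro g hg
  rw [mem_normalizer_iff]
  intro x
  constructor
  · exact h g hg x
  · intro hx
    have := h g⁻¹ (A.inv_mem hg) _ hx
    simpa [mul_assoc] using this

theorem conj_mem_of_norm {A X : Subgroup G} (h : A ≤ normalizer (X : Set G)) {g x : G} (hg : g ∈ A) (hx : x ∈ X) :
    g * x * g⁻¹ ∈ X := (mem_normalizer_iff.mp (h hg) x).mp hx

theorem le_normalizer_inf' {A X Y : Subgroup G} (hX : A ≤ normalizer (X : Set G)) (hY : A ≤ normalizer (Y : Set G)) :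
    A ≤ normalizer ((X ⊓ Y : Subgroup G) : Set G) :=
  le_normalizer_of_conj fun _ hg _ hx => ⟨conj_mem_of_norm hX hg hx.1, conj_mem_of_norm hY hg hx.2⟩

theorem le_normalizer_of_normal {A : Subgroup G} (N : Subgroup G) (hN : N.Normal) : A ≤ normalizer (N : Set G) :=
  le_normalizer_of_conj fun g _ x hx => hN.conj_mem x hx g

/-! ### The core `O_r(A)` -/

theorem OO_le (r : ℕ) (A : Subgroup G) : OO r A ≤ A := map_subtype_le _

theorem le_normalizer_OO (r : ℕ) (A : Subgroup G) : A ≤ normalizer (OO r A : Set G) :=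
  LocalCore.le_normalizer_map_pCore r A

theorem isPGroup_OO (r : ℕ) (A : Subgroup G) : IsPGroup r ↥(OO r A) := LocalCore.isPGroup_map_pCore r A

theorem le_OO {K : Subgroup G} (hKA : K ≤ A) (hK : IsPGroup r ↥K) (hn : A ≤ normalizer (K : Set G)) : K ≤ OO r A :=
  LocalCore.le_map_pCore hKA hK hn

theorem conj_mem_OO {g x : G} (hg : g ∈ A) (hx : x ∈ OO r A) : g * x * g⁻¹ ∈ OO r A :=
  conj_mem_of_norm (le_normalizer_OO r A) hg hx

theorem OO_map (r : ℕ) (A : Subgroup G) (e : G ≃* G) : OO r (A.map e.toMonoidHom) = (OO r A).map e.toMonoidHom := by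
  have key : ∀ (A : Subgroup G) (e : G ≃* G), (OO r A).map e.toMonoidHom ≤ OO r (A.map e.toMonoidHom) := by
    intro A e
    apply le_OO
    · exact map_mono (OO_le r A)
    · exact (isPGroup_OO r A).map _
    · apply le_normalizer_of_conj
      rintro _ ⟨g, hg, rfl⟩ _ ⟨x, hx, rfl⟩
      exact ⟨g * x * g⁻¹, conj_mem_OO hg hx, by simp⟩
  apply le_antisymm _ (key A e)
  have h := key (A.map e.toMonoidHom) e.symm
  have h2 := map_mono (f := e.toMonoidHom) h
  have h3 : ∀ B : Subgroup G, (B.map e.symm.toMonoidHom).map e.toMonoidHom = B := by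
    intro B
    rw [map_map]
    have : e.toMonoidHom.comp e.symm.toMonoidHom = MonoidHom.id G := by
      ext x; simp
    rw [this, map_id]
  have h4 : (A.map e.toMonoidHom).map e.symm.toMonoidHom = A := by
    rw [map_map]
    have : e.symm.toMonoidHom.comp e.toMonoidHom = MonoidHom.id G := by
      ext x; simp
    rw [this, map_id]
  rw [h3, h4] at h2
  exact h2

/-- `F*` is invariant under isomorphisms. -/
theorem map_genFit {X Y : Type*} [Group X] [Group Y] (e : X ≃* Y) :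
    (generalizedFittingSubgroup X).map e.toMonoidHom = generalizedFittingSubgroup Y := by
  rw [generalizedFittingSubgroup, generalizedFittingSubgroup, Subgroup.map_sup,
    SignalizersComponents.Components.map_equiv_layer e]
  congr 1
  exact Cores.map_equiv_fittingSubgroup e

namespace Loc

variable (h : Loc N A r)
include h

theorem fact : Fact r.Prime := ⟨h.prime⟩

theorem N_ne_bot : N ≠ ⊥ := by
  intro hN
  have := h.simple.toNontrivial
  rw [hN] at this
  exact not_nontrivial _ this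

theorem A_ne_top : A ≠ ⊤ := h.max.1

theorem sup_eq_top : N ⊔ A = ⊤ := by
  refine (h.max.le_iff.mp (le_sup_right : A ≤ N ⊔ A)).resolve_right fun h1 => h.not_le ?_
  rw [← h1]
  exact le_sup_left

/-- every element of `G` is a product of an element of `N` and one of `A` -/
theorem exists_mul (g : G) : ∃ x ∈ N, ∃ a ∈ A, g = x * a := by
  have := h.normal
  have h1 : g ∈ N ⊔ A := by rw [h.sup_eq_top]; exact mem_top g
  rw [Subgroup.mem_sup_of_normal_left] at h1
  obtain ⟨x, hx, a, ha, rfl⟩ := h1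
  exact ⟨x, hx, a, ha, rfl⟩

/-- An element of `G` commuting with `N` is trivial. -/
theorem eq_one_of_comm {g : G} (hg : ∀ x ∈ N, g * x = x * g) : g = 1 := by
  have h1 : g ∈ centralizer (N : Set G) := by
    rw [mem_centralizer_iff]
    intro x hx
    exact (hg x hx).symm
  rwa [h.cent, mem_bot] at h1

/-- A nontrivial normal subgroup of `G` contains `N`. -/
theorem eq_bot_or_le {H : Subgroup G} (hH : H.Normal) : H = ⊥ ∨ N ≤ H := by
  have hN := h.normal
  have hs := h.simple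
  rcases hs.eq_bot_or_eq_top_of_normal (H.subgroupOf N) inferInstance with h1 | h1
  · left
    rw [eq_bot_iff]
    intro x hx
    rw [mem_bot]
    apply h.eq_one_of_comm
    intro y hy
    have h2 : x * y * x⁻¹ * y⁻¹ ∈ H ⊓ N := by
      refine ⟨?_, ?_⟩
      · have : y * x⁻¹ * y⁻¹ ∈ H := hH.conj_mem _ (H.inv_mem hx) y
        have := H.mul_mem hx this
        simpa [mul_assoc] using this
      · exact N.mul_mem (hN.conj_mem y hy x) (N.inv_mem hy)
    have h3 : (⟨x * y * x⁻¹ * y⁻¹, h2.2⟩ : N) ∈ H.subgroupOf N := h2.1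
    rw [h1, mem_bot] at h3
    have h4 : x * y * x⁻¹ * y⁻¹ = 1 := congrArg Subtype.val h3
    rw [mul_inv_eq_one, mul_inv_eq_iff_eq_mul] at h4
    exact h4
  · right
    rwa [subgroupOf_eq_top] at h1

/-- A nontrivial subgroup normalised by `A` and not containing `N` has the normalizer `A`. -/
theorem normalizer_eq {H : Subgroup G} (hA : A ≤ normalizer (H : Set G)) (h1 : H ≠ ⊥) (h2 : ¬ N ≤ H) :
    normalizer (H : Set G) = A := by
  rcases h.max.le_iff.mp hA with h3 | h3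
  · exact absurd (h.eq_bot_or_le (normalizer_eq_top_iff.mp h3)) (by tauto)
  · exact h3

/-- A subgroup normalised by `A` and not containing `N` lies in `A`. -/
theorem le_of_norm {H : Subgroup G} (hA : A ≤ normalizer (H : Set G)) (h2 : ¬ N ≤ H) : H ≤ A := by
  by_cases h1 : H = ⊥
  · rw [h1]; exact bot_le
  · calc H ≤ normalizer (H : Set G) := le_normalizer
      _ = A := h.normalizer_eq hA h1 h2

/-- A proper subgroup of `N` normalised by `A` lies in `A`. -/
theorem le_of_norm' {H : Subgroup G} (hHN : H ≤ N) (hne : H ≠ N) (hA : A ≤ normalizer (H : Set G)) : H ≤ A :=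
  h.le_of_norm hA fun h1 => hne (le_antisymm hHN h1)

theorem not_N_le_of_le {H : Subgroup G} (hH : H ≤ A) : ¬ N ≤ H := fun h1 => h.not_le (h1.trans hH)

/-- A nontrivial normal subgroup of `A` has the normalizer `A`. -/
theorem normalizer_eq_of_le {H : Subgroup G} (hH : H ≤ A) (hA : A ≤ normalizer (H : Set G)) (h1 : H ≠ ⊥) :
    normalizer (H : Set G) = A := h.normalizer_eq hA h1 (h.not_N_le_of_le hH)

theorem mem_of_norm {H : Subgroup G} (hH : H ≤ A) (hA : A ≤ normalizer (H : Set G)) (h1 : H ≠ ⊥) {g : G}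
    (hg : ∀ x ∈ H, g * x * g⁻¹ ∈ H) (hfin : Finite G) : g ∈ A := by
  rw [← h.normalizer_eq_of_le hH hA h1]
  have h2 : H.map (MulAut.conj g).toMonoidHom = H := by
    apply eq_of_le_of_card_ge
    · rintro _ ⟨x, hx, rfl⟩
      exact hg x hx
    · rw [card_map_of_injective (MulAut.conj g).injective]
  rw [mem_normalizer_iff]
  intro x
  refine ⟨hg x, fun hx => ?_⟩
  rw [← h2] at hx
  obtain ⟨y, hy, hxy⟩ := hx
  have h3 : g * y * g⁻¹ = g * x * g⁻¹ := hxy
  have : y = x := by simpa using h3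
  rwa [← this]

theorem eq_of_both {C : Subgroup G} {s : ℕ} (hC : Loc N C s) {H : Subgroup G} (h1 : H ≠ ⊥) (h2 : ¬ N ≤ H)
    (hAH : A ≤ normalizer (H : Set G)) (hCH : C ≤ normalizer (H : Set G)) : A = C := by
  rw [← h.normalizer_eq hAH h1 h2, ← hC.normalizer_eq hCH h1 h2]

theorem norm_inf : A ≤ normalizer ((A ⊓ N : Subgroup G) : Set G) :=
  le_normalizer_inf' le_normalizer (le_normalizer_of_normal N h.normal)

theorem norm_OO_inf : A ≤ normalizer ((OO r A ⊓ N : Subgroup G) : Set G) :=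
  le_normalizer_inf' (le_normalizer_OO r A) (le_normalizer_of_normal N h.normal)

/-- `A ∩ N = C ∩ N ≠ 1` implies `A = C`. -/
theorem eq_of_inf_eq {C : Subgroup G} {s : ℕ} (hC : Loc N C s) (hne : A ⊓ N ≠ ⊥) (heq : A ⊓ N = C ⊓ N) : A = C :=
  h.eq_of_both hC hne (h.not_N_le_of_le inf_le_left) h.norm_inf (by rw [heq]; exact hC.norm_inf)

/-- The normal nilpotent subgroups of `A` lie in `O_r(A)`. -/
theorem le_OO_of_nilpotent {K : Subgroup G} (hKA : K ≤ A) (hK : Group.IsNilpotent ↥K) (hn : A ≤ normalizer (K : Set G)) :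
    K ≤ OO r A := by
  refine (LocalCore.le_map_fittingSubgroup hKA hK hn).trans ?_
  apply map_mono
  rw [← h.star]
  exact le_sup_right

theorem le_OO_of_comm {K : Subgroup G} (hKA : K ≤ A) (hK : ∀ x ∈ K, ∀ y ∈ K, x * y = y * x)
    (hn : A ≤ normalizer (K : Set G)) : K ≤ OO r A := by
  apply h.le_OO_of_nilpotent hKA _ hn
  let _ : CommGroup ↥K := { (inferInstance : Group ↥K) with
    mul_comm := fun x y => Subtype.ext (hK x x.2 y y.2) }
  exact (inferInstance : Group.IsNilpotent ↥K)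

/-- `A` has no component. -/
theorem no_component {K : Subgroup ↥A} (hK : IsComponent K) [Finite G] : False := by
  have := h.fact
  have h1 : K ≤ pCore r ↥A := by
    rw [← h.star]
    exact (SignalizersComponents.Components.component_le_layer hK).trans le_sup_left
  apply SignalizersComponents.Components.quasisimple_not_isSolvable hK.2
  have h2 : Group.IsNilpotent ↥(pCore r ↥A) := Cores.pCore_isNilpotent r
  have h3 : Group.IsSolvable ↥(pCore r ↥A) := inferInstance
  exact Group.isSolvable_of_isSolvable_injective (f := inclusion h1) (inclusion_injective h1)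

/-- `A` has no quasisimple subnormal subgroup (subnormal in two steps). -/
theorem no_qs [Finite G] {K₀ K₁ : Subgroup G} (h0 : K₀ ≤ A) (hn0 : A ≤ normalizer (K₀ : Set G)) (h1 : K₁ ≤ K₀)
    (hn1 : K₀ ≤ normalizer (K₁ : Set G)) (hq : IsQuasisimple ↥K₁) : False := by
  have hA0 : (K₀.subgroupOf A).Normal := normal_subgroupOf_of_le_normalizer hn0
  have hsub : (K₁.subgroupOf A).IsSubnormal := by
    refine Subgroup.IsSubnormal.step _ (K₀.subgroupOf A) ?_ hA0.isSubnormal ?_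
    · exact fun x hx => h1 hx
    · have h3 : K₀.subgroupOf A ≤ normalizer ((K₁.subgroupOf A : Subgroup ↥A) : Set ↥A) := by
        apply le_normalizer_of_conj
        intro g hg x hx
        exact conj_mem_of_norm hn1 hg hx
      exact normal_subgroupOf_of_le_normalizer h3
  refine h.no_component (K := K₁.subgroupOf A) ⟨hsub, ?_⟩
  exact SignalizersComponents.Components.isQuasisimple_of_mulEquiv (subgroupOfEquivOfLe (h1.trans h0)).symm hq

/-- `C_A(O_r(A)) ≤ O_r(A)`. -/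
theorem mem_OO_of_comm [Finite G] {x : G} (hx : x ∈ A) (hc : ∀ y ∈ OO r A, x * y = y * x) : x ∈ OO r A := by
  have h1 : (⟨x, hx⟩ : ↥A) ∈ centralizer (generalizedFittingSubgroup ↥A : Set ↥A) := by
    rw [mem_centralizer_iff]
    intro y hy
    rw [SetLike.mem_coe, h.star] at hy
    exact Subtype.ext (hc y ⟨y, hy, rfl⟩).symm
  have h2 := GenFitting.centralizer_genFitting_le h1
  rw [h.star] at h2
  exact ⟨⟨x, hx⟩, h2, rfl⟩

theorem OO_ne_bot [Finite G] (hA : A ≠ ⊥) : OO r A ≠ ⊥ := by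
  intro h1
  apply hA
  rw [eq_bot_iff]
  intro x hx
  rw [← h1]
  apply h.mem_OO_of_comm hx
  intro y hy
  rw [h1, mem_bot] at hy
  rw [hy, mul_one, one_mul]

/-- a minimal normal subgroup of `A` inside `K`, central in `O_r(A)` and of exponent `r` -/
theorem exists_min [Finite G] {K : Subgroup G} (hK : K ≤ OO r A) (hn : A ≤ normalizer (K : Set G)) (hne : K ≠ ⊥) :
    ∃ X : Subgroup G, X ≤ K ∧ X ≠ ⊥ ∧ A ≤ normalizer (X : Set G) ∧
      (∀ Y : Subgroup G, Y ≤ X → Y ≠ ⊥ → A ≤ normalizer (Y : Set G) → Y = X) ∧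
      (∀ x ∈ X, ∀ y ∈ OO r A, x * y = y * x) ∧ (∀ x ∈ X, x ^ r = 1) := by
  have := h.fact
  classical
  have hfin : Finite (Subgroup G) := inferInstance
  obtain ⟨X, ⟨hXK, hX1, hXn⟩, hmin⟩ := Set.Finite.exists_minimal (s := {X : Subgroup G | X ≤ K ∧ X ≠ ⊥ ∧ A ≤ normalizer (X : Set G)})
    (Set.toFinite _) ⟨K, le_rfl, hne, hn⟩
  have hmin' : ∀ Y : Subgroup G, Y ≤ X → Y ≠ ⊥ → A ≤ normalizer (Y : Set G) → Y = X := by
    intro Y hY hY1 hYn
    exact le_antisymm hY (hmin ⟨hY.trans hXK, hY1, hYn⟩ hY)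
  have hXO : X ≤ OO r A := hXK.trans hK
  have hnX : (X.subgroupOf (OO r A)).Normal := normal_subgroupOf_of_le_normalizer ((OO_le r A).trans hXn)
  have hX1' : X.subgroupOf (OO r A) ≠ ⊥ := by
    intro h1
    rw [subgroupOf_eq_bot, disjoint_iff, inf_eq_left.mpr hXO] at h1
    exact hX1 h1
  have hnil : Group.IsNilpotent ↥(OO r A) := (isPGroup_OO r A).isNilpotent
  have hcen := NormalAbelian.normal_inf_center_ne_bot (X.subgroupOf (OO r A)) hX1'
  set Y : Subgroup G := X ⊓ centralizer (OO r A : Set G) with hY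
  have hYn : A ≤ normalizer (Y : Set G) := by
    apply le_normalizer_of_conj
    rintro g hg x ⟨hx1, hx2⟩
    refine ⟨conj_mem_of_norm hXn hg hx1, ?_⟩
    have hx2' : x ∈ centralizer (OO r A : Set G) := hx2
    rw [mem_centralizer_iff] at hx2'
    change g * x * g⁻¹ ∈ centralizer (OO r A : Set G)
    rw [mem_centralizer_iff]
    intro y hy
    have h3 := hx2' (g⁻¹ * y * g) (by
      have := conj_mem_OO (r := r) (A.inv_mem hg) hy
      simpa using this)
    calc y * (g * x * g⁻¹) = g * ((g⁻¹ * y * g) * x) * g⁻¹ := by group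
      _ = g * (x * (g⁻¹ * y * g)) * g⁻¹ := by rw [h3]
      _ = g * x * g⁻¹ * y := by group
  have hY1 : Y ≠ ⊥ := by
    intro h1
    apply hcen
    rw [eq_bot_iff]
    rintro x ⟨hx1, hx2⟩
    have h3 : (x : G) ∈ Y := by
      refine ⟨hx1, ?_⟩
      change (x : G) ∈ centralizer (OO r A : Set G)
      rw [mem_centralizer_iff]
      intro y hy
      have := mem_center_iff.mp hx2 ⟨y, hy⟩
      exact congrArg Subtype.val this
    rw [h1, mem_bot] at h3
    rw [mem_bot]
    exact Subtype.ext h3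
  have hYX := hmin' Y inf_le_left hY1 hYn
  have hXc : ∀ x ∈ X, ∀ y ∈ OO r A, x * y = y * x := by
    intro x hx y hy
    rw [← hYX] at hx
    exact (mem_centralizer_iff.mp hx.2 y hy).symm
  refine ⟨X, hXK, hX1, hXn, hmin', hXc, ?_⟩
  -- exponent
  let Z : Subgroup G :=
    { carrier := {x | x ∈ X ∧ x ^ r = 1}
      one_mem' := ⟨X.one_mem, one_pow r⟩
      mul_mem' := by
        rintro x y ⟨hx, hx'⟩ ⟨hy, hy'⟩
        refine ⟨X.mul_mem hx hy, ?_⟩
        rw [(show Commute x y from hXc x hx y (hXO hy)).mul_pow, hx', hy', one_mul]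
      inv_mem' := by
        rintro x ⟨hx, hx'⟩
        exact ⟨X.inv_mem hx, by rw [inv_pow, hx', inv_one]⟩ }
  have hZX : Z ≤ X := fun x hx => hx.1
  have hZn : A ≤ normalizer (Z : Set G) := by
    apply le_normalizer_of_conj
    rintro g hg x ⟨hx1, hx2⟩
    refine ⟨conj_mem_of_norm hXn hg hx1, ?_⟩
    rw [conj_pow, hx2, mul_one, mul_inv_cancel]
  have hZ1 : Z ≠ ⊥ := by
    intro h1
    have hXp : IsPGroup r ↥X := (isPGroup_OO r A).to_le hXO
    have hnt : Nontrivial ↥X := (Subgroup.nontrivial_iff_ne_bot X).mpr hX1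
    have hdvd : r ∣ Nat.card ↥X := by
      obtain ⟨n, hn, hc⟩ := (IsPGroup.nontrivial_iff_card hXp).mp hnt
      rw [hc]
      exact dvd_pow_self r hn.ne'
    obtain ⟨x, hx⟩ := exists_prime_orderOf_dvd_card' r hdvd
    have h2 : (x : G) ∈ Z := by
      refine ⟨x.2, ?_⟩
      have := pow_orderOf_eq_one x
      rw [hx] at this
      exact congrArg Subtype.val this
    rw [h1, mem_bot] at h2
    have h3 : x = 1 := Subtype.ext h2
    rw [h3, orderOf_one] at hx
    exact h.prime.one_lt.ne hx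
  have hZe := hmin' Z hZX hZ1 hZn
  intro x hx
  rw [← hZe] at hx
  exact hx.2

/-- `|A| ≤ |A ∩ N| |G : N|` -/
theorem card_le [Finite G] : Nat.card ↥A ≤ Nat.card ↥(A ⊓ N : Subgroup G) * N.index := by
  have hN := h.normal
  have h1 : Nat.card ↥(A ⊓ N : Subgroup G) * N.relIndex A = Nat.card ↥A := by
    have := Subgroup.card_mul_index (N.subgroupOf A)
    rw [← this]
    congr 1
    have h2 : N.subgroupOf A = (A ⊓ N).subgroupOf A := by
      rw [inf_subgroupOf_left]
    rw [h2]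
    exact (Nat.card_congr (subgroupOfEquivOfLe inf_le_left).toEquiv).symm
  rw [← h1]
  exact Nat.mul_le_mul_left _ (Nat.le_of_dvd (Nat.pos_of_ne_zero index_ne_zero_of_finite)
    (relIndex_dvd_index_of_normal N A))

/-- `Loc` is invariant under conjugation. -/
theorem conj (g : G) : Loc N (A.map (MulAut.conj g).toMonoidHom) r where
  normal := h.normal
  simple := h.simple
  nonab := h.nonab
  cent := h.cent
  max := by
    have h1 := (MulAut.conj g).mapSubgroup.isCoatom_iff A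
    exact h1.mpr h.max
  not_le := by
    intro h1
    apply h.not_le
    intro x hx
    have h2 : g * x * g⁻¹ ∈ A.map (MulAut.conj g).toMonoidHom := h1 (h.normal.conj_mem x hx g)
    obtain ⟨y, hy, hxy⟩ := h2
    have h3 : g * y * g⁻¹ = g * x * g⁻¹ := hxy
    have : y = x := by simpa using h3
    rwa [← this]
  prime := h.prime
  star := by
    let e : ↥A ≃* ↥(A.map (MulAut.conj g).toMonoidHom) := (MulAut.conj g).subgroupMap A
    rw [← map_genFit e, ← Cores.map_equiv_pCore e r, h.star]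

end Loc

theorem card_mul_relIndex' {H K : Subgroup G} (h : H ≤ K) : Nat.card ↥H * H.relIndex K = Nat.card ↥K := by
  have h1 := (H.subgroupOf K).card_mul_index
  rwa [Nat.card_congr (subgroupOfEquivOfLe h).toEquiv] at h1

/-! ### The bound -/

theorem M_mono {d e : ℕ} (h : d ≤ e) : M d ≤ M e := by
  have h1 : Nat.factorial d ≤ Nat.factorial e := Nat.factorial_le h
  have h2 : Nat.factorial (d - 1) ≤ Nat.factorial (e - 1) := Nat.factorial_le (by omega)
  unfold M
  calc Nat.factorial d * (Nat.factorial (d - 1)) ^ d ≤ Nat.factorial e * (Nat.factorial (e - 1)) ^ d :=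
        Nat.mul_le_mul h1 (Nat.pow_le_pow_left h2 d)
    _ ≤ _ := Nat.mul_le_mul_left _ (Nat.pow_le_pow_right (Nat.factorial_pos _) h)

theorem M_five : M 5 = 955514880 := by decide

namespace Sit

theorem card_eq [Finite G] (h : Sit N A C A₁ C₁ A₂ C₂ r d) : Nat.card ↥C = Nat.card ↥A := by
  obtain ⟨g, rfl⟩ := h.conj
  exact card_map_of_injective (MulAut.conj g).injective

theorem symm [Finite G] (h : Sit N A C A₁ C₁ A₂ C₂ r d) : Sit N C A C₁ A₁ C₂ A₂ r d where
  locA := h.locC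
  locC := h.locA
  ne := h.ne.symm
  conj := by
    obtain ⟨g, hg⟩ := h.conj
    refine ⟨g⁻¹, ?_⟩
    rw [hg, Subgroup.map_map]
    have : (MulAut.conj g⁻¹).toMonoidHom.comp (MulAut.conj g).toMonoidHom = MonoidHom.id G := by
      ext x
      change g⁻¹ * (g * x * g⁻¹) * g⁻¹⁻¹ = x
      group
    rw [this, Subgroup.map_id]
  idx := by
    have h1 := h.idx
    have h2 : (A ⊓ C).relIndex A * Nat.card ↥(A ⊓ C : Subgroup G) = Nat.card ↥A := by
      rw [mul_comm]
      exact card_mul_relIndex' inf_le_left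
    have h3 : (C ⊓ A).relIndex C * Nat.card ↥(C ⊓ A : Subgroup G) = Nat.card ↥C := by
      rw [mul_comm]
      exact card_mul_relIndex' inf_le_left
    rw [h.card_eq, inf_comm, ← h2] at h3
    rw [← h1, inf_comm]
    exact Nat.eq_of_mul_eq_mul_right Nat.card_pos h3
  five := h.five
  A₁_le := by rw [inf_comm]; exact h.C₁_le
  C₁_le := by rw [inf_comm]; exact h.A₁_le
  A₁_norm := h.C₁_norm
  C₁_norm := h.A₁_norm
  A₂_le := by rw [inf_comm]; exact h.C₂_le
  C₂_le := by rw [inf_comm]; exact h.A₂_le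
  A₂_norm := h.C₂_norm
  C₂_norm := h.A₂_norm
  A₂_ne := h.C₂_ne
  C₂_ne := h.A₂_ne
  A₂_OO := h.C₂_OO
  C₂_OO := h.A₂_OO

variable (h : Sit N A C A₁ C₁ A₂ C₂ r d)
include h

theorem A₁_le_A : A₁ ≤ A := h.A₁_le.trans inf_le_left
theorem A₁_le_C : A₁ ≤ C := h.A₁_le.trans inf_le_right
theorem C₁_le_A : C₁ ≤ A := h.C₁_le.trans inf_le_left
theorem C₁_le_C : C₁ ≤ C := h.C₁_le.trans inf_le_right
theorem A₂_le_A₁ : A₂ ≤ A₁ := h.A₂_le.trans inf_le_left
theorem A₂_le_C₁ : A₂ ≤ C₁ := h.A₂_le.trans inf_le_right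
theorem C₂_le_A₁ : C₂ ≤ A₁ := h.C₂_le.trans inf_le_left
theorem C₂_le_C₁ : C₂ ≤ C₁ := h.C₂_le.trans inf_le_right
theorem A₂_le_A : A₂ ≤ A := h.A₂_le_A₁.trans h.A₁_le_A
theorem A₂_le_C : A₂ ≤ C := h.A₂_le_A₁.trans h.A₁_le_C
theorem C₂_le_A : C₂ ≤ A := h.C₂_le_A₁.trans h.A₁_le_A
theorem C₂_le_C : C₂ ≤ C := h.C₂_le_A₁.trans h.A₁_le_C

theorem A₂_OO_A : A₂ ≤ OO r A := le_OO h.A₂_le_A ((isPGroup_OO r C).to_le h.A₂_OO) h.A₂_norm
theorem C₂_OO_C : C₂ ≤ OO r C := le_OO h.C₂_le_C ((isPGroup_OO r A).to_le h.C₂_OO) h.C₂_norm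

/-- small order is enough -/
theorem card_le_of_five {m : ℕ} (hm : Nat.card ↥A ≤ m) (h5 : m ≤ 955514880) : Nat.card ↥A ≤ M d := by
  refine (hm.trans h5).trans ?_
  rw [← M_five]
  exact M_mono h.five

theorem card_le_M (hm : Nat.card ↥A ≤ M 5) : Nat.card ↥A ≤ M d := hm.trans (M_mono h.five)

/-- (TW2): `Y ≤ C₂` normal in `C`, `a ∈ A`: `Y^a ≤ A₁ ≤ C`, and `Y`, `Y^a` normalise each other. -/
theorem conj_mem_C {Y : Subgroup G} (hY : Y ≤ C₂) {y a : G} (hy : y ∈ Y) (ha : a ∈ A) :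
    a * y * a⁻¹ ∈ A₁ ∧ a * y * a⁻¹ ∈ C := by
  have h1 : a * y * a⁻¹ ∈ A₁ := conj_mem_of_norm h.A₁_norm ha (h.C₂_le_A₁ (hY hy))
  exact ⟨h1, h.A₁_le_C h1⟩

/-- (TW2): the commutator `[y, y'^a]` of two elements `y, y' ∈ Y` lies in `Y`. -/
theorem comm_mem {Y : Subgroup G} (hY : Y ≤ C₂) (hC : C ≤ normalizer (Y : Set G)) {y y' a : G} (hy : y ∈ Y) (hy' : y' ∈ Y)
    (ha : a ∈ A) : y * (a * y' * a⁻¹) * y⁻¹ * (a * y' * a⁻¹)⁻¹ ∈ Y := by
  have h1 := (h.conj_mem_C hY hy' ha).2
  have h2 : (a * y' * a⁻¹) * y⁻¹ * (a * y' * a⁻¹)⁻¹ ∈ Y := conj_mem_of_norm hC h1 (Y.inv_mem hy)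
  have := Y.mul_mem hy h2
  simpa [mul_assoc] using this

/-- (TW2): `[y, y'^a]` also lies in `Y^a`. -/
theorem comm_mem' {Y : Subgroup G} (hY : Y ≤ C₂) (hC : C ≤ normalizer (Y : Set G)) {y y' a : G} (hy : y ∈ Y) (hy' : y' ∈ Y)
    (ha : a ∈ A) : a⁻¹ * (y * (a * y' * a⁻¹) * y⁻¹ * (a * y' * a⁻¹)⁻¹) * a ∈ Y := by
  have h1 := h.comm_mem hY hC hy' hy (A.inv_mem ha)
  have h2 := Y.inv_mem h1
  have h3 : (y' * (a⁻¹ * y * a⁻¹⁻¹) * y'⁻¹ * (a⁻¹ * y * a⁻¹⁻¹)⁻¹)⁻¹ =
      a⁻¹ * (y * (a * y' * a⁻¹) * y⁻¹ * (a * y' * a⁻¹)⁻¹) * a := by group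
  rwa [h3] at h2

theorem A_ne_bot : A ≠ ⊥ := by
  intro h1
  apply h.A₂_ne
  rw [eq_bot_iff, ← h1]
  exact h.A₂_le_A

/-- `A ≠ C`: nothing is normal in both -/
theorem false_of_both {H : Subgroup G} (h1 : H ≠ ⊥) (h2 : ¬ N ≤ H) (hAH : A ≤ normalizer (H : Set G))
    (hCH : C ≤ normalizer (H : Set G)) : False :=
  h.ne (h.locA.eq_of_both h.locC h1 h2 hAH hCH)

theorem false_of_both' {H : Subgroup G} (h1 : H ≠ ⊥) (h2 : H ≤ A) (hAH : A ≤ normalizer (H : Set G))
    (hCH : C ≤ normalizer (H : Set G)) : False :=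
  h.false_of_both h1 (h.locA.not_N_le_of_le h2) hAH hCH

theorem false_of_inf_eq (hne : A ⊓ N ≠ ⊥) (heq : A ⊓ N = C ⊓ N) : False :=
  h.ne (h.locA.eq_of_inf_eq h.locC hne heq)

theorem card_C₂N : Nat.card ↥(C ⊓ N : Subgroup G) = Nat.card ↥(A ⊓ N : Subgroup G) := by
  obtain ⟨g, hg⟩ := h.conj
  have hN := h.locA.normal
  have h1 : C ⊓ N = (A ⊓ N).map (MulAut.conj g).toMonoidHom := by
    rw [map_inf _ _ _ (MulAut.conj g).injective, ← hg]
    congr 1
    exact (Normal.map_conj_eq N g).symm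
  rw [h1]
  exact card_map_of_injective (MulAut.conj g).injective

end Sit

end Cfsg.Agent.H607.TW
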