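import Cfsg.Agent.H607.TW.Basic

/-!
# S3694: more definitions (helper607)
-/

set_option autoImplicit false

namespace Cfsg.Agent.H607.TW

open Subgroup

universe u

/-- The data of a minimal normal subgroup `X` of `A` inside `O_r(A) ∩ N` (from `Loc.exists_min`). -/
structure MinX {G : Type u} [Group G] (N A X : Subgroup G) (r : ℕ) : Prop where
  le : X ≤ OO r A ⊓ N
  ne : X ≠ ⊥
  norm : A ≤ normalizer (X : Set G)
  min : ∀ K : Subgroup G, K ≤ X → K ≠ ⊥ → A ≤ normalizer (K : Set G) → K = X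
  comm : ∀ x ∈ X, ∀ y ∈ OO r A, x * y = y * x
  exp : ∀ x ∈ X, x ^ r = 1

theorem Loc.exists_minX {G : Type u} [Group G] [Finite G] {N A : Subgroup G} {r : ℕ} (h : Loc N A r)
    (hne : OO r A ⊓ N ≠ ⊥) : ∃ X : Subgroup G, MinX N A X r := by
  obtain ⟨X, h1, h2, h3, h4, h5, h6⟩ := h.exists_min inf_le_left h.norm_OO_inf hne
  exact ⟨X, h1, h2, h3, h4, h5, h6⟩

/-- A subgroup `K` of `GL_n(F)` whose commutators are scalars and whose centre consists of scalars. -/
structure Tw {F : Type} [Field F] {n : ℕ} (K : Subgroup (Matrix.GeneralLinearGroup (Fin n) F)) : Prop where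
  comm : ∀ g ∈ K, ∀ h ∈ K, ∃ c : F, (g : Matrix (Fin n) (Fin n) F) * (h : Matrix (Fin n) (Fin n) F) =
    c • ((h : Matrix (Fin n) (Fin n) F) * (g : Matrix (Fin n) (Fin n) F))
  nondeg : ∀ g ∈ K, (∀ h ∈ K, g * h = h * g) → ∃ c : F, (g : Matrix (Fin n) (Fin n) F) = c • 1

end Cfsg.Agent.H607.TW
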