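import Cfsg.Agent.H607.TW.Alg

/-!
# S3694: outer elements (helper607)
-/

set_option autoImplicit false

namespace Cfsg.Agent.H607.TW

open Subgroup Cfsg

universe u

variable {G : Type u} [Group G] {N A X : Subgroup G} {r : ℕ} {F : Type} [Field F] {n : ℕ} {S : Type} [Group S]
  {ι : S →* Matrix.GeneralLinearGroup (Fin n) F} {π : S →* G}

/-- `H296.TW.cyc_sl`, `H296.TW.cyc_su` -/
def CycAx (ι : S →* Matrix.GeneralLinearGroup (Fin n) F) (π : S →* G) (N : Subgroup G) : Prop :=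
  ∀ X : Subgroup G, X ⊓ N = ⊥ → (∀ x ∈ X, ∃ B, Ind ι π x (tauP B 1)) → IsCyclic ↥X

theorem Model.ind_one (hM : Model N ι π) : Ind ι π 1 (tauP 1 1) := by
  have := ind_self' hM (1 : S)
  rwa [map_one, map_one] at this

/-- the elements of `K` with a lift `x ↦ B x B⁻¹` -/
def Dg [Finite G] (hM : Model N ι π) (K : Subgroup G) : Subgroup G where
  carrier := {x | x ∈ K ∧ ∃ B, Ind ι π x (tauP B 1)}
  one_mem' := ⟨K.one_mem, 1, hM.ind_one⟩
  mul_mem' := by
    rintro x y ⟨hx, B, hB⟩ ⟨hy, C, hC⟩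
    exact ⟨K.mul_mem hx hy, B * C, H296.TW.ind_mul_one hM.two hB hC⟩
  inv_mem' := by
    rintro x ⟨hx, B, hB⟩
    refine ⟨K.inv_mem hx, ?_⟩
    have h1 : ∀ k : ℕ, ∃ C, Ind ι π (x ^ k) (tauP C 1) := by
      intro k
      induction k with
      | zero => exact ⟨1, by rw [pow_zero]; exact hM.ind_one⟩
      | succ k ih =>
        obtain ⟨C, hC⟩ := ih
        exact ⟨C * B, by rw [pow_succ]; exact H296.TW.ind_mul_one hM.two hC hB⟩
    have h2 : x⁻¹ = x ^ (orderOf x - 1) := by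
      rw [inv_eq_iff_mul_eq_one, ← pow_succ', Nat.sub_add_cancel (orderOf_pos x), pow_orderOf_eq_one]
    rw [h2]
    exact h1 _

theorem mem_Dg [Finite G] (hM : Model N ι π) {K : Subgroup G} {x : G} :
    x ∈ Dg hM K ↔ x ∈ K ∧ ∃ B, Ind ι π x (tauP B 1) := Iff.rfl

theorem Dg_le [Finite G] (hM : Model N ι π) (K : Subgroup G) : Dg hM K ≤ K := fun _ hx => hx.1

theorem comm_mem_Dg [Finite G] [Finite F] (hM : Model N ι π) {K : Subgroup G} (hK : A ≤ normalizer (K : Set G)) {x a : G}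
    (hx : x ∈ K) (ha : a ∈ A) : a * x * a⁻¹ * x⁻¹ ∈ Dg hM K :=
  ⟨K.mul_mem (conj_mem_of_norm hK ha hx) (K.inv_mem hx), hM.comm_lift x a⟩

theorem norm_Dg [Finite G] [Finite F] (hM : Model N ι π) {K : Subgroup G} (hK : A ≤ normalizer (K : Set G)) :
    A ≤ normalizer (Dg hM K : Set G) := by
  apply le_normalizer_of_conj
  intro a ha x hx
  have h1 := comm_mem_Dg hM hK hx.1 ha
  have h2 := (Dg hM K).mul_mem h1 hx
  simpa using h2

theorem outer [Finite G] [Finite F] (h : Loc N A r) (hM : Model N ι π) (hcyc : CycAx ι π N) {K : Subgroup G}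
    (hK : K ≤ OO r A) (hn : A ≤ normalizer (K : Set G)) (hne : K ≠ ⊥) (hKN : K ⊓ N = ⊥) :
    ∃ x ∈ K, x ≠ 1 ∧ x ^ r = 1 ∧ x ∉ N ∧ A ≤ normalizer ((zpowers x : Subgroup G) : Set G) ∧
      (∀ y ∈ A ⊓ N, x * y = y * x) ∧ (∀ y ∈ N, x * y = y * x → y ∈ A) ∧
      ((∃ B, Ind ι π x (tauP B 1)) ∨ ∀ a ∈ A, a * x = x * a) := by
  obtain ⟨X, hXK, hX1, hXn, hmin, -, hexp⟩ := h.exists_min hK hn hne
  have key : ∃ x ∈ X, x ≠ 1 ∧ A ≤ normalizer ((zpowers x : Subgroup G) : Set G) ∧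
      ((∃ B, Ind ι π x (tauP B 1)) ∨ ∀ a ∈ A, a * x = x * a) := by
    by_cases hD : Dg hM X = ⊥
    · obtain ⟨x, hx, hx1⟩ := (Subgroup.ne_bot_iff_exists_ne_one.mp hX1 : ∃ a : ↥X, a ≠ 1) |>.imp
        (fun a ha => ha) |> fun ⟨a, ha⟩ => (⟨a, a.2, fun h => ha (Subtype.ext h)⟩ : ∃ x : G, x ∈ X ∧ x ≠ 1)
      have hc : ∀ a ∈ A, a * x = x * a := by
        intro a ha
        have h1 := comm_mem_Dg hM hXn hx ha
        rw [hD, mem_bot, mul_inv_eq_one, mul_inv_eq_iff_eq_mul] at h1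
        exact h1
      refine ⟨x, hx, hx1, ?_, Or.inr hc⟩
      apply le_normalizer_of_conj
      rintro a ha _ ⟨k, rfl⟩
      have h2 : a * x ^ k * a⁻¹ = x ^ k := by
        have : Commute a (x ^ k) := (show Commute a x from hc a ha).zpow_right k
        rw [this.eq, mul_inv_cancel_right]
      simp only
      rw [h2]
      exact ⟨k, rfl⟩
    · have hDX := hmin _ (Dg_le hM X) hD (norm_Dg hM hXn)
      have hXN : X ⊓ N = ⊥ := by
        rw [eq_bot_iff, ← hKN]
        exact inf_le_inf_right N hXK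
      have hX2 : ∀ x ∈ X, ∃ B, Ind ι π x (tauP B 1) := by
        intro x hx
        rw [← hDX] at hx
        exact hx.2
      have hc := hcyc X hXN hX2
      obtain ⟨x, hx⟩ := hc.exists_generator
      have h3 : zpowers (x : G) = X := by
        ext y
        constructor
        · rintro ⟨k, rfl⟩
          exact X.zpow_mem x.2 k
        · intro hy
          obtain ⟨k, hk⟩ := hx ⟨y, hy⟩
          exact ⟨k, congrArg Subtype.val hk⟩
      refine ⟨x, x.2, ?_, by rw [h3]; exact hXn, Or.inl (hX2 x x.2)⟩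
      intro h4
      apply hX1
      rw [← h3, h4, zpowers_one_eq_bot]
  obtain ⟨x, hx, hx1, hxn, hkind⟩ := key
  have hxK := hXK hx
  have hxN : x ∉ N := fun h1 => hx1 (by
    have : x ∈ K ⊓ N := ⟨hxK, h1⟩
    rwa [hKN, mem_bot] at this)
  refine ⟨x, hxK, hx1, hexp x hx, hxN, hxn, ?_, ?_, hkind⟩
  · rintro y ⟨hyA, hyN⟩
    have h1 : x * y * x⁻¹ * y⁻¹ ∈ K ⊓ N := by
      refine ⟨?_, ?_⟩
      · have h2 : y * x⁻¹ * y⁻¹ ∈ K := conj_mem_of_norm hn hyA (K.inv_mem hxK)
        have := K.mul_mem hxK h2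
        simpa [mul_assoc] using this
      · exact N.mul_mem (h.normal.conj_mem y hyN x) (N.inv_mem hyN)
    rw [hKN, mem_bot, mul_inv_eq_one, mul_inv_eq_iff_eq_mul] at h1
    exact h1
  · intro y hy hxy
    let H : Subgroup G := N ⊓ centralizer (zpowers x : Set G)
    have hH1 : y ∈ H := by
      refine ⟨hy, ?_⟩
      change y ∈ centralizer (zpowers x : Set G)
      rw [mem_centralizer_iff]
      rintro _ ⟨k, rfl⟩
      exact ((show Commute x y from hxy).zpow_left k).eq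
    have hH2 : H ≠ N := by
      intro h1
      apply hx1
      apply h.eq_one_of_comm
      intro z hz
      rw [← h1] at hz
      exact mem_centralizer_iff.mp hz.2 x (mem_zpowers x)
    have hH3 : A ≤ normalizer (H : Set G) := by
      apply le_normalizer_of_conj
      rintro a ha z ⟨hz1, hz2⟩
      refine ⟨h.normal.conj_mem z hz1 a, ?_⟩
      have hz3 : z ∈ centralizer (zpowers x : Set G) := hz2
      rw [mem_centralizer_iff] at hz3
      change a * z * a⁻¹ ∈ centralizer (zpowers x : Set G)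
      rw [mem_centralizer_iff]
      intro w hw
      have h4 : a⁻¹ * w * a ∈ zpowers x := by
        have := conj_mem_of_norm hxn (A.inv_mem ha) hw
        simpa using this
      calc w * (a * z * a⁻¹) = a * ((a⁻¹ * w * a) * z) * a⁻¹ := by group
        _ = a * (z * (a⁻¹ * w * a)) * a⁻¹ := by rw [hz3 _ h4]
        _ = a * z * a⁻¹ * w := by group
    exact h.le_of_norm' inf_le_left hH2 hH3 hH1

end Cfsg.Agent.H607.TW
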