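import Cfsg.Agent.H968.TW.FieldEnd
import Cfsg.Agent.H679.CentField
import Cfsg.Agent.H607.TW.Outer

/-!
# S3694: the field case, `n ≥ 3`, with the exceptions of `hfld`

The proof is helper968's (`H968/TW/FieldEnd.lean`, `T14.lean`); only the hypothesis `hfld` is weakened.
-/

set_option autoImplicit false

namespace Cfsg.Agent.H607.TW

open Subgroup Cfsg.Agent.H968.TW

universe u

section

variable {G : Type u} [Group G] [Finite G] {N A C A₁ C₁ A₂ C₂ X : Subgroup G} {r d : ℕ} {F : Type} [Field F] {n : ℕ}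
  {S : Type} [Group S] {ι : S →* Matrix.GeneralLinearGroup (Fin n) F} {π : S →* G}

/-- T14 with the two inputs (helper968's proof; `hfld` is only used for `A` itself) -/
theorem end_field_core [Finite F] (hT : T12a F n) (h : Sit N A C A₁ C₁ A₂ C₂ r d) (hn : 3 ≤ n) (hM : Model N ι π)
    (hC : CompAx ι π A)
    (hfld : ∀ (x : G), x ^ r = 1 → x ≠ 1 → (∀ y ∈ A ⊓ N, x * y = y * x) →
      (∀ y ∈ N, x * y = y * x → y ∈ A) → A ⊓ N ≠ ⊥ → ∀ (B : Matrix.GeneralLinearGroup (Fin n) F) (σ : F ≃+* F), σ ≠ 1 →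
      Ind ι π x (tauP B σ) → r = 2)
    (hX : MinX N A X r) (hab : ∀ s t : S, π s ∈ X → π t ∈ X → s * t = t * s)
    (hinv : ∀ b ∈ Algebra.adjoin F (mt ι '' {s | π s ∈ X}), b ≠ 0 → ∃ c ∈ Algebra.adjoin F (mt ι '' {s | π s ∈ X}), b * c = 1)
    (hout : A₂ ⊓ N = ⊥ → ∃ x ∈ A₂, x ^ r = 1 ∧ x ≠ 1 ∧ (∀ y ∈ A ⊓ N, x * y = y * x) ∧
      (∀ y ∈ N, x * y = y * x → y ∈ A)) : False := by
  have hSfin : Finite S := Finite.of_injective ι hM.inj
  obtain ⟨hr2, hloc⟩ := field_local hT h.locA hn hM hC hX hab hinv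
  have hXn : ∀ a ∈ A, ∀ x ∈ X, a * x * a⁻¹ ∈ X := fun a ha x hx => conj_mem_of_norm hX.norm ha hx
  -- an element of `O_r(A) ∩ O_r(C)` with an inner lift is trivial
  have key : ∀ y ∈ OO r A, y ∈ OO r C → (∃ u, InnL ι π y u) → y = 1 := by
    intro y hyA hyC hyu
    by_contra hy1
    obtain ⟨u, hu⟩ := hyu
    have h1 := hloc y hyA hy1 u hu
    obtain ⟨g, hg⟩ := h.conj
    -- the conjugate
    obtain ⟨y', hy'⟩ : ∃ y', y' = g⁻¹ * y * g⁻¹⁻¹ := ⟨_, rfl⟩
    have hy'A : y' ∈ OO r A := by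
      have h2 := OO_map r A (MulAut.conj g)
      rw [hg, h2] at hyC
      obtain ⟨z, hz, hzy⟩ := hyC
      have h3 : g * z * g⁻¹ = y := hzy
      rw [hy', ← h3, show g⁻¹ * (g * z * g⁻¹) * g⁻¹⁻¹ = z by group]
      exact hz
    have hy'1 : y' ≠ 1 := by
      intro h2
      apply hy1
      rw [hy', inv_inv] at h2
      calc y = g * (g⁻¹ * y * g) * g⁻¹ := by group
        _ = 1 := by rw [h2]; group
    obtain ⟨B, σ, hBσ⟩ := hM.lift g⁻¹
    obtain ⟨v, hv⟩ : ∃ v, InnL ι π y' v := by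
      rw [hy']
      rcases hBσ with hτ | hτ
      · exact hu.conj hM.inj hτ
      · exact hu.conj hM.inj hτ
    have h2 := hloc y' hy'A hy'1 v hv
    -- `X` and its conjugate are equal
    have hzc : IsCyclic ↥(zpowers y) := inferInstance
    have hconj : ∀ x ∈ X, g * x * g⁻¹ ∈ X := by
      intro x hx
      have h3 : g * x * g⁻¹ ∈ zpowers y := by
        obtain ⟨m, hm⟩ := mem_zpowers_iff.1 (h2 hx)
        rw [mem_zpowers_iff]
        refine ⟨m, ?_⟩
        rw [← hm, hy', inv_inv, ← conj_zpow]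
        have h4 : g * (g⁻¹ * y * g) * g⁻¹ = y := by group
        rw [h4]
      obtain ⟨⟨x₀, hx₀⟩, hx₀1⟩ := Subgroup.ne_bot_iff_exists_ne_one.1 hX.ne
      have hx₀1' : x₀ ≠ 1 := fun h => hx₀1 (Subtype.ext h)
      have h5 := mem_zpowers_of_cyclic hzc h.locA.prime (h1 hx₀) hx₀1' ⟨1, by rw [pow_one]; exact hX.exp _ hx₀⟩ h3
        (by rw [conj_pow, hX.exp x hx, mul_one, mul_inv_cancel])
      exact (zpowers_le.2 hx₀) h5
    -- `C` normalizes `X`
    have hgX : X.map (MulAut.conj g).toMonoidHom = X := by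
      apply Subgroup.eq_of_le_of_card_ge
      · rintro _ ⟨x, hx, rfl⟩
        exact hconj x hx
      · rw [card_map_of_injective (MulAut.conj g).injective]
    refine h.false_of_both' (H := X) hX.ne ((hX.le.trans inf_le_left).trans (OO_le r A)) hX.norm ?_
    apply le_normalizer_of_conj
    intro c hc x hx
    rw [hg] at hc
    obtain ⟨a, ha, hac⟩ := hc
    have hac' : g * a * g⁻¹ = c := hac
    rw [← hgX] at hx
    obtain ⟨z, hz, hzx⟩ := hx
    have hzx' : g * z * g⁻¹ = x := hzx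
    have h6 : c * x * c⁻¹ = g * (a * z * a⁻¹) * g⁻¹ := by rw [← hac', ← hzx']; group
    rw [h6]
    exact hconj _ (hXn a ha z hz)
  have hA₂N : A₂ ⊓ N = ⊥ := by
    rw [eq_bot_iff]
    rintro y ⟨hy1, hy2⟩
    rw [mem_bot]
    obtain ⟨s, rfl⟩ : ∃ s, π s = y := by
      have h1 : y ∈ N := hy2
      rw [← hM.range] at h1
      exact h1
    exact key _ (h.A₂_OO_A hy1) (h.A₂_OO hy1) ⟨_, InnL.pi s⟩
  obtain ⟨x, hxA, hxr, hx1, hxc, hxN⟩ := hout hA₂N
  have hAN : A ⊓ N ≠ ⊥ := by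
    intro h1
    apply hX.ne
    rw [eq_bot_iff, ← h1]
    exact fun y hy => ⟨OO_le r A (hX.le hy).1, (hX.le hy).2⟩
  -- an element with a `tauP` lift is impossible
  have fin : ∀ z ∈ A₂, z ^ r = 1 → z ≠ 1 → (∀ y ∈ A ⊓ N, z * y = y * z) → (∀ y ∈ N, z * y = y * z → y ∈ A) →
      ∀ (B : Matrix.GeneralLinearGroup (Fin n) F) (σ : F ≃+* F), Ind ι π z (tauP B σ) → False := by
    intro z hz hzr hz1 hzc hzN B σ hind
    by_cases hσ : σ = 1
    · subst hσ
      exact hz1 (key z (h.A₂_OO_A hz) (h.A₂_OO hz) ⟨B, innL_of_ind (by omega) hind⟩)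
    · exact hr2 (hfld z hzr hz1 hzc hzN hAN B σ hσ hind)
  obtain ⟨B, σ, hBσ⟩ := hM.lift x
  rcases hBσ with hτ | hτ
  · exact fin x hxA hxr hx1 hxc hxN B σ hτ
  · have hodd : Odd r := h.locA.prime.odd_of_ne_two hr2
    obtain ⟨k, hk⟩ := hodd
    have hxx : (x * x) ^ (k + 1) = x := by
      rw [← pow_two, ← pow_mul, show 2 * (k + 1) = r + 1 by omega, pow_succ, hxr, one_mul]
    refine fin (x * x) (mul_mem hxA hxA) ?_ ?_ ?_ ?_ _ _ (by
      have h1 := ind_mul hτ hτ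
      rw [tauM_tauM] at h1
      exact h1)
    · rw [← pow_two, ← pow_mul, mul_comm, pow_mul, hxr, one_pow]
    · intro h1
      rw [h1, one_pow] at hxx
      exact hx1 hxx.symm
    · intro y hy
      have h1 : Commute x y := hxc y hy
      exact h1.mul_left h1
    · intro y hy hyc
      apply hxN y hy
      have h1 : Commute (x * x) y := hyc
      have h2 := h1.pow_left (k + 1)
      rw [hxx] at h2
      exact h2

end

variable {G : Type u} [Group G] [Finite G] {N A C A₁ C₁ A₂ C₂ X : Subgroup G} {r d : ℕ} {F : Type} [Field F] [Fintype F]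
  {n : ℕ} {S : Type} [Group S] {ι : S →* Matrix.GeneralLinearGroup (Fin n) F} {π : S →* G}

/-- T14 : the field case, `n ≥ 3` -/
theorem end_field (h : Sit N A C A₁ C₁ A₂ C₂ r d) (hn : 3 ≤ n) (hM : Model N ι π) (hC : CompAx ι π A) (hcyc : CycAx ι π N)
    (hfld : ∀ (A' : Subgroup G) (x : G), Loc N A' r → x ^ r = 1 → x ≠ 1 → (∀ y ∈ A' ⊓ N, x * y = y * x) →
      (∀ y ∈ N, x * y = y * x → y ∈ A') → A' ⊓ N ≠ ⊥ → ∀ (B : Matrix.GeneralLinearGroup (Fin n) F) (σ : F ≃+* F), σ ≠ 1 →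
      Ind ι π x (tauP B σ) → r = 2 ∨ Nat.card ↥A' ≤ M 5)
    (hX : MinX N A X r) (hab : ∀ s t : S, π s ∈ X → π t ∈ X → s * t = t * s)
    (hinv : ∀ b ∈ Algebra.adjoin F (mt ι '' {s | π s ∈ X}), b ≠ 0 → ∃ c ∈ Algebra.adjoin F (mt ι '' {s | π s ∈ X}), b * c = 1) :
    Nat.card ↥A ≤ M d := by
  by_cases hA5 : Nat.card ↥A ≤ M 5
  · exact h.card_le_M hA5
  · exfalso
    have hT : T12a F n := fun B h1 h2 => Cfsg.Agent.H679.CentField.exists_phi_centralizer (by omega) B h1 h2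
    refine end_field_core hT h hn hM hC (fun x h1 h2 h3 h4 h5 B σ h6 h7 => (hfld A x h.locA h1 h2 h3 h4 h5 B σ h6 h7).resolve_right hA5)
      hX hab hinv fun hA => ?_
    obtain ⟨x, hx, hx1, hxr, -, -, h1, h2, -⟩ := outer h.locA hM hcyc h.A₂_OO_A h.A₂_norm h.A₂_ne hA
    exact ⟨x, hx, hxr, hx1, h1, h2⟩

end Cfsg.Agent.H607.TW
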