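import Cfsg.Agent.H607.TW.Outer
import Cfsg.Agent.H607.TW.TypeAb
import Cfsg.Agent.H296.TW.Cyc
import Cfsg.Agent.H748.TW.CompSL
import Cfsg.Agent.H748.TW.SemiSL
import Cfsg.Agent.H989.TW.Comp
import Cfsg.Agent.H982.TWModel
import Cfsg.Agent.H76.TW.FieldSL
import Cfsg.Agent.H76.TW.FieldSU
import Cfsg.Agent.H588.TWG.Su
import Cfsg.Agent.H947.TW.Torus

/-!
# S3694: the hypotheses of the end theorems (helper607)
-/

set_option autoImplicit false

namespace Cfsg.Agent.H607.TW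

open Subgroup Cfsg

universe u

section general

variable {G : Type u} [Group G] {N A X : Subgroup G} {r : ℕ} {F : Type} [Field F] {n : ℕ} {S : Type} [Group S]
  {ι : S →* Matrix.GeneralLinearGroup (Fin n) F} {π : S →* G}

/-- Skolem-Noether, semilinear version -/
theorem eq_tauP {σ : F ≃+* F} {τ : Matrix (Fin n) (Fin n) F ≃+ Matrix (Fin n) (Fin n) F} (h1 : Par true τ) (h2 : Semi σ τ) :
    ∃ B : Matrix.GeneralLinearGroup (Fin n) F, τ = tauP B σ := by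
  have p1 : Par true ((tauP 1 σ).symm.trans τ) := by
    have := h1.comp (tauP_par (1 : Matrix.GeneralLinearGroup (Fin n) F) σ).symm'
    simpa using this
  have s1 : Semi 1 ((tauP 1 σ).symm.trans τ) := by
    have := h2.comp (tauP_semi (1 : Matrix.GeneralLinearGroup (Fin n) F) σ).symm'
    rwa [mul_inv_cancel] at this
  obtain ⟨B, hB⟩ := eq_tauP_one p1 s1
  refine ⟨B, ?_⟩
  ext1 x
  have h3 : τ x = ((tauP 1 σ).symm.trans τ) (tauP (1 : Matrix.GeneralLinearGroup (Fin n) F) σ x) := by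
    rw [AddEquiv.trans_apply, AddEquiv.symm_apply_apply]
  rw [h3, hB, H296.TW.tauP_one_eq, tauP_apply, tauP_apply, inv_one, Units.val_one, one_mul, mul_one]

/-- an element of odd order has a lift of the first kind -/
theorem lift_of_odd [Finite F] (hM : Model N ι π) {x : G} {m : ℕ} (hm : Odd m) (hx : x ^ m = 1) :
    ∃ (B : Matrix.GeneralLinearGroup (Fin n) F) (σ : F ≃+* F), Ind ι π x (tauP B σ) := by
  have key : ∃ (σ : F ≃+* F) (τ : Matrix (Fin n) (Fin n) F ≃+ Matrix (Fin n) (Fin n) F), Par true τ ∧ Semi σ τ ∧ Ind ι π x τ := by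
    obtain ⟨b, σ, τ, p1, s1, i1⟩ := hM.exists_lift' x
    have h2 : ∀ k : ℕ, ∃ (σ : F ≃+* F) (τ : Matrix (Fin n) (Fin n) F ≃+ Matrix (Fin n) (Fin n) F),
        Par true τ ∧ Semi σ τ ∧ Ind ι π ((x * x) ^ k) τ := by
      intro k
      induction k with
      | zero => exact ⟨1, _, tauP_par 1 1, tauP_semi 1 1, by rw [pow_zero]; exact hM.ind_one⟩
      | succ k ih =>
        obtain ⟨σ', τ', p2, s2, i2⟩ := ih
        refine ⟨_, _, ?_, s2.comp (s1.comp s1), by rw [pow_succ]; exact i2.comp (i1.comp i1)⟩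
        have := p2.comp (p1.comp p1)
        cases b <;> simpa using this
    obtain ⟨k, hk⟩ := hm
    have h3 : (x * x) ^ (k + 1) = x := by
      rw [← pow_two, ← pow_mul, show 2 * (k + 1) = m + 1 by omega, pow_succ, hx, one_mul]
    obtain ⟨σ', τ', h4, h5, h6⟩ := h2 (k + 1)
    rw [h3] at h6
    exact ⟨σ', τ', h4, h5, h6⟩
  obtain ⟨σ, τ, h1, h2, h3⟩ := key
  obtain ⟨B, rfl⟩ := eq_tauP h1 h2
  exact ⟨B, σ, h3⟩

theorem card_aut_le [Finite F] : Nat.card (F ≃+* F) ≤ Nat.card F := by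
  classical
  have := Fintype.ofFinite F
  obtain ⟨g, hg⟩ := IsCyclic.exists_generator (α := Fˣ)
  apply Nat.card_le_card_of_injective (fun σ : F ≃+* F => σ (g : F))
  intro σ τ h
  ext x
  by_cases hx : x = 0
  · rw [hx, map_zero, map_zero]
  · obtain ⟨k, hk⟩ := hg (Units.mk0 x hx)
    have h1 : x = ((g ^ k : Fˣ) : F) := by
      have := congrArg Units.val hk
      simpa using this.symm
    have h2 : ∀ ρ : F ≃+* F, ρ ((g ^ k : Fˣ) : F) = (ρ (g : F)) ^ k := by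
      intro ρ
      rw [Units.val_zpow_eq_zpow_val, map_zpow₀]
    rw [h1, h2, h2]
    simp only at h
    rw [h]

theorem card_ker_le [Finite F] (hM : Model N ι π) : Nat.card ↥π.ker ≤ Nat.card F := by
  have h1 : ∀ z : ↥π.ker, ∃ c : F, mt ι z = c • (1 : Matrix (Fin n) (Fin n) F) := fun z => (hM.ker z).1 z.2
  choose f hf using h1
  apply Nat.card_le_card_of_injective f
  intro z w hzw
  apply Subtype.ext
  apply hM.mt_inj
  rw [hf, hf, hzw]

/-- a crude bound for `|A|` -/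
theorem card_le_crude [Finite G] [Finite F] (h : Loc N A r) (hM : Model N ι π)
    (hidx : N.index ≤ 2 * Nat.card (F ≃+* F) * Nat.card π.ker) {m q : ℕ} (h1 : Nat.card ↥(A ⊓ N : Subgroup G) ≤ m) (h2 : Nat.card F ≤ q)
    (h3 : m * (2 * q * q) ≤ 955514880) : Nat.card ↥A ≤ M 5 := by
  rw [M_five]
  refine le_trans ?_ h3
  refine h.card_le.trans (Nat.mul_le_mul h1 (hidx.trans ?_))
  exact Nat.mul_le_mul (Nat.mul_le_mul_left 2 (card_aut_le.trans h2)) ((card_ker_le hM).trans h2)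

end general

section SL

variable {G : Type u} [Group G] [Finite G] {N A : Subgroup G} {r : ℕ} {F : Type} [Field F] [Fintype F] {n : ℕ}
  {π : Matrix.SpecialLinearGroup (Fin n) F →* G}

theorem compAx_sl (h : Loc N A r) (hM : Model N (iSL n F) π) : CompAx (iSL n F) π A := by
  intro E hE hne L _ w φ hφ hr hc
  rcases H748.TW.comp_sl h hM E hE hne L w φ hφ hr hc with h1 | ⟨h1, h2, h3⟩
  · exact Or.inl h1
  · exact Or.inr (Or.inl ⟨h1, h2, by omega⟩)

theorem cycAx_sl (h : Loc N A r) (hM : Model N (iSL n F) π) : CycAx (iSL n F) π N :=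
  fun X hX hx => H296.TW.cyc_sl h.normal h.cent hM X hX hx

theorem fld_sl (hn : 3 ≤ n) (hM : Model N (iSL n F) π) (A' : Subgroup G) (x : G) (h : Loc N A' r) (hx : x ^ r = 1) (_hx1 : x ≠ 1)
    (hc : ∀ y ∈ A' ⊓ N, x * y = y * x) (hle : ∀ y ∈ N, x * y = y * x → y ∈ A') (hne : A' ⊓ N ≠ ⊥)
    (B : Matrix.GeneralLinearGroup (Fin n) F) (σ : F ≃+* F) (hσ : σ ≠ 1) (hτ : Ind (iSL n F) π x (tauP B σ)) :
    r = 2 ∨ Nat.card ↥A' ≤ M 5 := by
  have := (H76.TW.Field.field_sl h hM hx hc hle hne hσ hτ).1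
  omega

theorem out_sl (hr : ¬ r ∣ Fintype.card F) (hn : 3 ≤ n) (hM : Model N (iSL n F) π) (A' : Subgroup G) (x : G) (h : Loc N A' r)
    (hX : Extra (iSL n F) π N A' r) (hx : x ^ r = 1) (_hx1 : x ≠ 1)
    (hc : ∀ y ∈ A' ⊓ N, x * y = y * x) (hle : ∀ y ∈ N, x * y = y * x → y ∈ A')
    (hno : ∀ B : Matrix.GeneralLinearGroup (Fin n) F, ¬ Ind (iSL n F) π x (tauP B 1)) :
    (r = 2 ∧ Nat.card F ≤ 10 ^ 4) ∨ Nat.card ↥A' ≤ M 5 := by
  have hne : A' ⊓ N ≠ ⊥ := fun h1 => hX.ne (eq_bot_iff.mpr ((inf_le_inf_right N (OO_le r A')).trans h1.le))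
  obtain ⟨B, σ, hB⟩ | ⟨h2, B, σ, hB⟩ : (∃ (B : Matrix.GeneralLinearGroup (Fin n) F) (σ : F ≃+* F), Ind (iSL n F) π x (tauP B σ)) ∨
      (r = 2 ∧ ∃ (B : Matrix.GeneralLinearGroup (Fin n) F) (σ : F ≃+* F), Ind (iSL n F) π x (tauM B σ)) := by
    rcases h.prime.eq_two_or_odd' with h2 | h2
    · obtain ⟨B, σ, h3 | h3⟩ := hM.lift x
      · exact Or.inl ⟨B, σ, h3⟩
      · exact Or.inr ⟨h2, B, σ, h3⟩
    · exact Or.inl (lift_of_odd hM h2 hx)
  · have hσ : σ ≠ 1 := by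
      rintro rfl
      exact hno B hB
    have := (H76.TW.Field.field_sl h hM hx hc hle hne hσ hB).1
    omega
  · left
    subst h2
    exact ⟨rfl, (H588.TWG.graph_q_sl h hn hr hM hX hx hc hle hB).trans (by norm_num)⟩

/-- `n = 2` -/
theorem out_sl_two {π : Matrix.SpecialLinearGroup (Fin 2) F →* G} (hM : Model N (iSL 2 F) π) (A' : Subgroup G) (x : G) (h : Loc N A' r)
    (hX : Extra (iSL 2 F) π N A' r) (hx : x ^ r = 1) (_hx1 : x ≠ 1)
    (hc : ∀ y ∈ A' ⊓ N, x * y = y * x) (hle : ∀ y ∈ N, x * y = y * x → y ∈ A')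
    (hno : ∀ B : Matrix.GeneralLinearGroup (Fin 2) F, ¬ Ind (iSL 2 F) π x (tauP B 1)) :
    (r = 2 ∧ Nat.card F ≤ 10 ^ 4) ∨ Nat.card ↥A' ≤ M 5 := by
  have hne : A' ⊓ N ≠ ⊥ := fun h1 => hX.ne (eq_bot_iff.mpr ((inf_le_inf_right N (OO_le r A')).trans h1.le))
  obtain ⟨B, σ, hB, -⟩ := H947.TW.exists_lift π hM x
  have hσ : σ ≠ 1 := by
    rintro rfl
    exact hno B hB
  obtain ⟨-, h1, h2⟩ := H76.TW.Field.field_sl h hM hx hc hle hne hσ hB
  right
  exact card_le_crude h hM (H982.TWModel.index_sl h.normal h.cent hM) h2 h1 (by norm_num)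

end SL

section SU

variable {G : Type u} [Group G] [Finite G] {N A : Subgroup G} {r : ℕ} {F : Type} [Field F] [Fintype F] {n q : ℕ}
  {π : ↥(Cfsg.SU n F q) →* G}

theorem compAx_su (hF : Fintype.card F = q ^ 2) (hn : 3 ≤ n) (h : Loc N A r) (hM : Model N (iSU n F q) π) :
    CompAx (iSU n F q) π A := by
  intro E hE hne L _ w φ hφ hr hc
  rcases H989.TW.comp_su hF hn h hM E hE hne L w φ hφ hr hc with h1 | ⟨-, h2, ⟨h1, h3⟩ | ⟨h1, h3⟩⟩
  · exact Or.inl h1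
  · refine Or.inr (Or.inl ⟨h1, h2, ?_⟩)
    rw [Nat.card_eq_fintype_card, hF]
    rcases h3 with rfl | rfl <;> norm_num
  · refine Or.inr (Or.inr ⟨h1, h2, ?_⟩)
    rw [Nat.card_eq_fintype_card, hF, h3]
    norm_num

theorem cycAx_su (hF : Fintype.card F = q ^ 2) (hn : 3 ≤ n) (h : Loc N A r) (hM : Model N (iSU n F q) π) :
    CycAx (iSU n F q) π N :=
  fun X hX hx => H296.TW.cyc_su hF h.normal h.cent hn hM X hX hx

theorem idx_su (hF : Fintype.card F = q ^ 2) (hn : 3 ≤ n) (h : Loc N A r) (hM : Model N (iSU n F q) π) :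
    N.index ≤ 2 * Nat.card (F ≃+* F) * Nat.card π.ker := by
  refine (H296.TW.index_su hF h.normal h.cent hn hM).trans ?_
  rw [mul_assoc]
  exact Nat.le_mul_of_pos_left _ two_pos

theorem fld_su (hF : Fintype.card F = q ^ 2) (hn : 3 ≤ n) (hM : Model N (iSU n F q) π) (A' : Subgroup G) (x : G) (h : Loc N A' r)
    (hx : x ^ r = 1) (_hx1 : x ≠ 1)
    (hc : ∀ y ∈ A' ⊓ N, x * y = y * x) (hle : ∀ y ∈ N, x * y = y * x → y ∈ A') (hne : A' ⊓ N ≠ ⊥)
    (B : Matrix.GeneralLinearGroup (Fin n) F) (σ : F ≃+* F) (hσ : σ ≠ 1) (hτ : Ind (iSU n F q) π x (tauP B σ)) :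
    r = 2 ∨ Nat.card ↥A' ≤ M 5 := by
  by_cases hr2 : r = 2
  · exact Or.inl hr2
  · right
    obtain ⟨-, h1, h2⟩ := H76.TW.Field.field_su hF hn h hr2 hM hx hc hle hne hσ hτ
    refine card_le_crude h hM (idx_su hF hn h hM) h2 (q := 64) ?_ (by norm_num)
    rw [Nat.card_eq_fintype_card, hF, h1]
    norm_num

theorem out_su (hF : Fintype.card F = q ^ 2) (hr : ¬ r ∣ Fintype.card F) (hn : 3 ≤ n) (hM : Model N (iSU n F q) π) (A' : Subgroup G)
    (x : G) (h : Loc N A' r)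
    (hX : Extra (iSU n F q) π N A' r) (hx : x ^ r = 1) (hx1 : x ≠ 1)
    (hc : ∀ y ∈ A' ⊓ N, x * y = y * x) (hle : ∀ y ∈ N, x * y = y * x → y ∈ A')
    (hno : ∀ B : Matrix.GeneralLinearGroup (Fin n) F, ¬ Ind (iSU n F q) π x (tauP B 1)) :
    (r = 2 ∧ Nat.card F ≤ 10 ^ 4) ∨ Nat.card ↥A' ≤ M 5 := by
  have hne : A' ⊓ N ≠ ⊥ := fun h1 => hX.ne (eq_bot_iff.mpr ((inf_le_inf_right N (OO_le r A')).trans h1.le))
  obtain ⟨B, σ, -, hB⟩ := H296.TW.lift_su hF hn hM x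
  have hσ : σ ≠ 1 := by
    rintro rfl
    exact hno B hB
  rcases fld_su hF hn hM A' x h hx hx1 hc hle hne B σ hσ hB with h1 | h1
  · left
    subst h1
    exact ⟨rfl, H588.TWG.graph_q_su hF h hn hr hM hX hx hc hle hσ hB⟩
  · exact Or.inr h1

end SU

end Cfsg.Agent.H607.TW
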