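import Cfsg.Agent.H607.TW.Ends
import Cfsg.Agent.H607.TW.EndField
import Cfsg.Agent.H966.TW.Coprime
import Cfsg.Agent.H328.TW.CharSU
import Cfsg.Agent.H968.TW.T13
import Cfsg.Agent.H87.TW.Extra
import Cfsg.Agent.H801.Sims.Main
import Cfsg.Agent.H599.TW.FrameSL
import Cfsg.Agent.H124.TW.ReductionFive

/-!
# S3694: the assembly

`result_of` : the theorem, given the frame case for the unitary groups (`FrameSU`, T6) and the bound for `d = 4` (S3567).
-/

set_option autoImplicit false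

namespace Cfsg.Agent.H607.TW

open Subgroup Cfsg

universe u

/-- the frame case for the unitary groups -/
def FrameSU (G : Type u) [Group G] [Finite G] : Prop :=
  ∀ {N A C A₁ C₁ A₂ C₂ : Subgroup G} {r d : ℕ} {F : Type} [Field F] [Fintype F] {n q : ℕ} (_ : Fintype.card F = q ^ 2)
    {π : ↥(Cfsg.SU n F q) →* G} (_ : Sit N A C A₁ C₁ A₂ C₂ r d)
    (_ : ¬ r ∣ Fintype.card F) (_ : 3 ≤ n) (_ : Model N (iSU n F q) π) {t : ℕ} {e : Fin t → Matrix (Fin n) (Fin n) F}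
    (_ : Frame (iSU n F q) π A e), Nat.card A ≤ M d

section cross

variable {G : Type u} [Group G] [Finite G] {N A C A₁ C₁ A₂ C₂ : Subgroup G} {r d : ℕ}
  {F : Type} [Field F] [Fintype F] {n : ℕ} {S : Type} [Group S]
  {ι : S →* Matrix.GeneralLinearGroup (Fin n) F} {π : S →* G}

theorem end_extra (h : Sit N A C A₁ C₁ A₂ C₂ r d)
    (hM : Model N ι π) (hcyc : CycAx ι π N) (hX : Extra ι π N A r)
    (hidx : N.index ≤ 2 * Nat.card (F ≃+* F) * Nat.card π.ker)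
    (hout : ∀ (A' : Subgroup G) (x : G), Loc N A' r → Extra ι π N A' r → x ^ r = 1 → x ≠ 1 → (∀ y ∈ A' ⊓ N, x * y = y * x) →
      (∀ y ∈ N, x * y = y * x → y ∈ A') → (∀ B : Matrix.GeneralLinearGroup (Fin n) F, ¬ Ind ι π x (tauP B 1)) →
      (r = 2 ∧ Nat.card F ≤ 10 ^ 4) ∨ Nat.card ↥A' ≤ M 5) : Nat.card ↥A ≤ M d := by
  refine H87.TW.end_extra_of (fun A' K hA' hK hn hne hKN => ?_) h hM hX hidx hout
  obtain ⟨x, h1, h2, h3, -, h4, h5, h6, -⟩ := outer hA' hM hcyc hK hn hne hKN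
  exact ⟨x, h1, h3, h2, h4, h5, h6⟩

/-- the cross characteristic case, `n ≥ 3`, uniform in SL and SU -/
theorem cross_char (h : Sit N A C A₁ C₁ A₂ C₂ r d)
    (hr : ¬ r ∣ Fintype.card F) (hn : 3 ≤ n) (hM : Model N ι π) (hS : SemiAx ι π A) (hC : CompAx ι π A) (hcyc : CycAx ι π N)
    (hidx : N.index ≤ 2 * Nat.card (F ≃+* F) * Nat.card π.ker)
    (hfld : ∀ (A' : Subgroup G) (x : G), Loc N A' r → x ^ r = 1 → x ≠ 1 → (∀ y ∈ A' ⊓ N, x * y = y * x) →
      (∀ y ∈ N, x * y = y * x → y ∈ A') → A' ⊓ N ≠ ⊥ → ∀ (B : Matrix.GeneralLinearGroup (Fin n) F) (σ : F ≃+* F), σ ≠ 1 →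
      Ind ι π x (tauP B σ) → r = 2 ∨ Nat.card ↥A' ≤ M 5)
    (hout : ∀ (A' : Subgroup G) (x : G), Loc N A' r → Extra ι π N A' r → x ^ r = 1 → x ≠ 1 → (∀ y ∈ A' ⊓ N, x * y = y * x) →
      (∀ y ∈ N, x * y = y * x → y ∈ A') → (∀ B : Matrix.GeneralLinearGroup (Fin n) F, ¬ Ind ι π x (tauP B 1)) →
      (r = 2 ∧ Nat.card F ≤ 10 ^ 4) ∨ Nat.card ↥A' ≤ M 5)
    (hframe : ∀ (t : ℕ) (e : Fin t → Matrix (Fin n) (Fin n) F), Frame ι π A e → Nat.card ↥A ≤ M d) :
    Nat.card ↥A ≤ M d := by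
  obtain ⟨X, hX⟩ := h.locA.exists_minX (H966.TW.OO_inf_ne_bot h.locA h.A_ne_bot)
  by_cases hab : ∀ s t : S, π s ∈ X → π t ∈ X → s * t = t * s
  · rcases type_abelian h.locA hM hS hX hab with ⟨t, e, he⟩ | hinv
    · exact hframe t e he
    · exact end_field h hn hM hC hcyc hfld hX hab hinv
  · push Not at hab
    obtain ⟨s, t, hs, ht, hst⟩ := hab
    rcases H968.TW.type_nonab h.locA hr hM hS hC hidx hX ⟨s, t, hs, ht, hst⟩ with hE | hsm
    · exact end_extra h hM hcyc hE hidx hout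
    · exact h.card_le_M hsm

end cross

section main

variable {G : Type u} [Group G] [Finite G] {N A C A₁ C₁ A₂ C₂ : Subgroup G} {r d : ℕ}
  {F : Type} [Field F] [Fintype F] {n : ℕ}

theorem main_sl {π : Matrix.SpecialLinearGroup (Fin n) F →* G} (h : Sit N A C A₁ C₁ A₂ C₂ r d) (hn : 3 ≤ n)
    (hM : Model N (iSL n F) π) : Nat.card ↥A ≤ M d := by
  by_cases hr : r ∣ Fintype.card F
  · exact H801.Sims.char_sl h hr hM
  · exact cross_char h hr hn hM (H748.TW.semi_sl h.locA hr hM) (compAx_sl h.locA hM) (cycAx_sl h.locA hM)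
      (H982.TWModel.index_sl h.locA.normal h.locA.cent hM) (fld_sl hn hM) (out_sl hr hn hM)
      (fun t e he => H599.TW.frame_sl h hr hn hM he)

/-- `n = 2` -/
theorem main_sl_two {π : Matrix.SpecialLinearGroup (Fin 2) F →* G} (h : Sit N A C A₁ C₁ A₂ C₂ r d)
    (hM : Model N (iSL 2 F) π) : Nat.card ↥A ≤ M d := by
  by_cases hr : r ∣ Fintype.card F
  · exact H801.Sims.char_sl h hr hM
  · obtain ⟨X, hX⟩ := h.locA.exists_minX (H966.TW.OO_inf_ne_bot h.locA h.A_ne_bot)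
    have hidx := H982.TWModel.index_sl h.locA.normal h.locA.cent hM
    by_cases hab : ∀ s t, π s ∈ X → π t ∈ X → s * t = t * s
    · refine H947.TW.two_torus h hr hM _ (Inv.adjoin (ι := iSL 2 F) (π := π) hX.norm) ?_ ?_
      · intro hbot
        apply hX.ne
        rw [eq_bot_iff]
        intro x hx
        obtain ⟨s, rfl⟩ := hM.exists_pre (hX.le hx).2
        have h1 : mt (iSL 2 F) s ∈ Algebra.adjoin F (mt (iSL 2 F) '' {s | π s ∈ X}) :=
          Algebra.subset_adjoin ⟨s, hx, rfl⟩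
        rw [hbot, Algebra.mem_bot] at h1
        obtain ⟨c, hc⟩ := h1
        rw [mem_bot, hM.ker]
        exact ⟨c, by rw [← hc, Algebra.algebraMap_eq_smul_one]⟩
      · apply adjoin_comm
        rintro _ ⟨s, hs, rfl⟩ _ ⟨t, ht, rfl⟩
        rw [← H296.TW.mt_mul, ← H296.TW.mt_mul, hab s t hs ht]
    · push Not at hab
      obtain ⟨s, t, hs, ht, hst⟩ := hab
      rcases H968.TW.type_nonab h.locA hr hM (H748.TW.semi_sl h.locA hr hM) (compAx_sl h.locA hM) hidx hX ⟨s, t, hs, ht, hst⟩ with hE | hsm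
      · exact end_extra h hM (cycAx_sl h.locA hM) hE hidx (out_sl_two hM)
      · exact h.card_le_M hsm

theorem main_su (hfs : FrameSU G) {q : ℕ} (hF : Fintype.card F = q ^ 2) {π : ↥(Cfsg.SU n F q) →* G} (h : Sit N A C A₁ C₁ A₂ C₂ r d) (hn : 3 ≤ n)
    (hM : Model N (iSU n F q) π) : Nat.card ↥A ≤ M d := by
  by_cases hr : r ∣ Fintype.card F
  · exact H328.TW.char_su hF h hr hn hM
  · exact cross_char h hr hn hM (H989.TW.semi_su hF hn h.locA hr hM) (compAx_su hF hn h.locA hM) (cycAx_su hF hn h.locA hM)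
      (idx_su hF hn h.locA hM) (fld_su hF hn hM) (out_su hF hr hn hM)
      (fun t e he => hfs hF h hr hn hM he)

theorem key (hfs : FrameSU G) (hsoc : Cfsg.IsPSL N ∨ Cfsg.IsPSU N) (h : Sit N A C A₁ C₁ A₂ C₂ r d) : Nat.card ↥A ≤ M d := by
  rcases hsoc with ⟨F, _, _, n, hn, h2, ⟨e⟩⟩ | ⟨F, _, _, n, q, hF, hn, h3, ⟨e⟩⟩
  · obtain ⟨π, hM⟩ := H982.TWModel.model_sl h.locA.normal h.locA.cent hn h2 e
    rcases Nat.lt_or_ge 2 n with h5 | h5
    · exact main_sl h h5 hM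
    · obtain rfl : n = 2 := by omega
      exact main_sl_two h hM
  · obtain ⟨π, hM⟩ := H296.TW.model_su hF h.locA.normal h.locA.cent hn h3 e
    exact main_su hfs hF h hn hM

theorem result_of {G Ω : Type*} [Group G] [Finite G] [MulAction G Ω] [FaithfulSMul G Ω] [Finite Ω] (hfs : FrameSU G)
    (N : Subgroup G) (hNn : N.Normal) (hNs : IsSimpleGroup N) (hNa : ¬ IsMulCommutative N) (hNc : Subgroup.centralizer (N : Set G) = ⊥) (hsoc : Cfsg.IsPSL N ∨ Cfsg.IsPSU N)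
    (hprim : MulAction.IsPreprimitive G Ω) (a b : Ω) (d : ℕ) (hd : Nat.card (MulAction.orbit (MulAction.stabilizer G a) b) = d) (h2 : 2 ≤ d)
    (h4 : Nat.card (MulAction.orbit (MulAction.stabilizer G a) b) = 4 → Nat.card ↥(MulAction.stabilizer G a) ≤ 31104) :
    Nat.card (MulAction.stabilizer G a) ≤ Nat.factorial d * (Nat.factorial (d - 1)) ^ d :=
  H124.TW.reduction_of_four N hNn hNs hNa hNc hprim a b d hd h2 h4 fun _ _ _ _ _ _ _ h => key hfs hsoc h

end main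

end Cfsg.Agent.H607.TW
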